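import Cfsg.Agent.H917.IFG.OpP

/-!
# S5719: subgroups `Y ∋ -1` of `SL₂(q)`, `q` odd, without elements of order four

`odd_sl` : if moreover `|Y| > q + 1` then `|Y| ∣ q (q - 1)`, `Y` has no normal `r`-subgroup `≠ 1` for odd `r ≠ p`
and `¬ 4 ∣ |Y|`.
-/

set_option autoImplicit false

namespace Cfsg.Agent.H917.IFG

open Cfsg Cfsg.Agent.Cit.HexBase Cfsg.Agent.Lib.SL2Mat
open scoped commutatorElement

universe u

section mat

variable {F : Type u} [Field F]

/-- the trace -/
def tr (x : SL2 F) : F := ent x 0 0 + ent x 1 1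

/-- `ent 0 0 - ent 1 1` -/
def df (x : SL2 F) : F := ent x 0 0 - ent x 1 1

theorem disc (x : SL2 F) : df x ^ 2 + 4 * ent x 0 1 * ent x 1 0 = tr x ^ 2 - 4 := by
  have := det_eq x
  unfold df tr
  linear_combination -4 * this

theorem comm_rel {e y : SL2 F} (h : e * y = y * e) : ent e 0 1 * ent y 1 0 = ent e 1 0 * ent y 0 1 ∧
    df e * ent y 0 1 = ent e 0 1 * df y ∧ df e * ent y 1 0 = ent e 1 0 * df y := by
  have h00 := congrArg (fun x => ent x 0 0) h
  have h01 := congrArg (fun x => ent x 0 1) h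
  have h10 := congrArg (fun x => ent x 1 0) h
  simp only [ent_mul] at h00 h01 h10
  unfold df
  refine ⟨by linear_combination h00, by linear_combination h01, by linear_combination -h10⟩

/-- not all of the three coordinates vanish -/
theorem nz {e : SL2 F} (he : tr e ^ 2 ≠ 4) : ent e 0 1 ≠ 0 ∨ ent e 1 0 ≠ 0 ∨ df e ≠ 0 := by
  by_contra hcon
  push Not at hcon
  obtain ⟨h1, h2, h3⟩ := hcon
  have := disc e
  rw [h1, h3] at this
  apply he
  linear_combination -this

theorem exists_kappa {e y : SL2 F} (he : tr e ^ 2 ≠ 4) (h : e * y = y * e) :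
    ∃ κ : F, ent y 0 1 = κ * ent e 0 1 ∧ ent y 1 0 = κ * ent e 1 0 ∧ df y = κ * df e := by
  obtain ⟨r1, r2, r3⟩ := comm_rel h
  by_cases hb : ent e 0 1 = 0
  · by_cases hc : ent e 1 0 = 0
    · have hd : df e ≠ 0 := by
        rcases nz he with h | h | h
        · exact absurd hb h
        · exact absurd hc h
        · exact h
      rw [hb, zero_mul] at r2
      rw [hc, zero_mul] at r3
      refine ⟨df y / df e, ?_, ?_, ?_⟩
      · rw [hb, mul_zero]
        exact (mul_eq_zero.1 r2).resolve_left hd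
      · rw [hc, mul_zero]
        exact (mul_eq_zero.1 r3).resolve_left hd
      · field_simp
    · rw [hb, zero_mul] at r1
      refine ⟨ent y 1 0 / ent e 1 0, ?_, ?_, ?_⟩
      · rw [hb, mul_zero]
        exact (mul_eq_zero.1 r1.symm).resolve_left hc
      · field_simp
      · field_simp
        linear_combination -r3
  · refine ⟨ent y 0 1 / ent e 0 1, ?_, ?_, ?_⟩
    · field_simp
    · field_simp
      linear_combination r1
    · field_simp
      linear_combination -r2

/-- two elements are equal if trace, `df` and the off-diagonal entries agree -/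
theorem ext_tr (h2 : (2 : F) ≠ 0) {x y : SL2 F} (ht : tr x = tr y) (h01 : ent x 0 1 = ent y 0 1)
    (h10 : ent x 1 0 = ent y 1 0) (hd : df x = df y) : x = y := by
  unfold tr at ht
  unfold df at hd
  refine ext_ent ?_ h01 h10 ?_
  · have : (2 : F) * (ent x 0 0 - ent y 0 0) = 0 := by linear_combination ht + hd
    exact sub_eq_zero.1 ((mul_eq_zero.1 this).resolve_left h2)
  · have : (2 : F) * (ent x 1 1 - ent y 1 1) = 0 := by linear_combination ht - hd
    exact sub_eq_zero.1 ((mul_eq_zero.1 this).resolve_left h2)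

/-- a commuting element with the same trace is `e` or `e⁻¹` -/
theorem eq_or_inv (h2 : (2 : F) ≠ 0) {e y : SL2 F} (he : tr e ^ 2 ≠ 4) (h : e * y = y * e) (ht : tr y = tr e) :
    y = e ∨ y = e⁻¹ := by
  obtain ⟨κ, k1, k3, k4⟩ := exists_kappa he h
  have d1 := disc e
  have d2 := disc y
  have hk : (κ - 1) * (κ + 1) = 0 := by
    rw [k1, k3, k4, ht] at d2
    have hne : tr e ^ 2 - 4 ≠ 0 := sub_ne_zero.2 he
    have : (tr e ^ 2 - 4) * ((κ - 1) * (κ + 1)) = 0 := by linear_combination d2 - κ ^ 2 * d1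
    exact (mul_eq_zero.1 this).resolve_left hne
  rcases mul_eq_zero.1 hk with h3 | h3
  · left
    have h4 : κ = 1 := sub_eq_zero.1 h3
    rw [h4, one_mul] at k1 k3 k4
    exact ext_tr h2 ht k1 k3 k4
  · right
    have h4 : κ = -1 := eq_neg_of_add_eq_zero_left h3
    rw [h4, neg_one_mul] at k1 k3 k4
    refine ext_tr h2 ?_ ?_ ?_ ?_
    · rw [ht, ent_inv]
      unfold tr
      simp only [mk_00, mk_11]
      ring
    · rw [k1, ent_inv, mk_01]
    · rw [k3, ent_inv, mk_10]
    · rw [k4, ent_inv]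
      unfold df
      simp only [mk_00, mk_11]
      ring

theorem tr_conj (x y : SL2 F) : tr (y * x * y⁻¹) = tr x := by
  have hd := det_eq y
  rw [ent_inv y]
  unfold tr
  simp only [ent_mul, mk_00, mk_01, mk_10, mk_11]
  linear_combination (ent x 0 0 + ent x 1 1) * hd

/-- an element inverting `e` has square `-1` -/
theorem sq_of_inv {e y : SL2 F} (he : tr e ^ 2 ≠ 4) (h : y * e * y⁻¹ = e⁻¹) : y * y = -1 := by
  rw [mul_inv_eq_iff_eq_mul] at h
  have h00 := congrArg (fun x => ent x 0 0) h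
  have h01 := congrArg (fun x => ent x 0 1) h
  have h10 := congrArg (fun x => ent x 1 0) h
  have h11 := congrArg (fun x => ent x 1 1) h
  rw [ent_inv e] at h00 h01 h10 h11
  simp only [ent_mul, mk_00, mk_01, mk_10, mk_11] at h00 h01 h10 h11
  have ht : tr y = 0 := by
    rcases nz he with h | h | h
    · have : ent e 0 1 * tr y = 0 := by unfold tr; linear_combination h01
      exact (mul_eq_zero.1 this).resolve_left h
    · have : ent e 1 0 * tr y = 0 := by unfold tr; linear_combination h10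
      exact (mul_eq_zero.1 this).resolve_left h
    · have : df e * tr y = 0 := by unfold tr df; linear_combination h00 - h11
      exact (mul_eq_zero.1 this).resolve_left h
  unfold tr at ht
  have hd := det_eq y
  have n00 : ent (-1 : SL2 F) 0 0 = -1 := by simp [ent]
  have n01 : ent (-1 : SL2 F) 0 1 = 0 := by simp [ent]
  have n10 : ent (-1 : SL2 F) 1 0 = 0 := by simp [ent]
  have n11 : ent (-1 : SL2 F) 1 1 = -1 := by simp [ent]
  refine ext_ent ?_ ?_ ?_ ?_
  · rw [n00, ent_mul]; linear_combination ent y 0 0 * ht - hd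
  · rw [n01, ent_mul]; linear_combination ent y 0 1 * ht
  · rw [n10, ent_mul]; linear_combination ent y 1 0 * ht
  · rw [n11, ent_mul]; linear_combination ent y 1 1 * ht - hd

/-- the powers of an element of trace two -/
theorem pow_ent {x : SL2 F} (ht : tr x = 2) (n : ℕ) : ent (x ^ n) 0 0 = 1 + n * (ent x 0 0 - 1) ∧
    ent (x ^ n) 0 1 = n * ent x 0 1 ∧ ent (x ^ n) 1 0 = n * ent x 1 0 ∧
    ent (x ^ n) 1 1 = 1 + n * (ent x 1 1 - 1) := by
  have hd := det_eq x
  unfold tr at ht
  induction n with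
  | zero => simp
  | succ n ih =>
    obtain ⟨i1, i2, i3, i4⟩ := ih
    rw [pow_succ]
    simp only [ent_mul, i1, i2, i3, i4]
    push_cast
    refine ⟨?_, ?_, ?_, ?_⟩
    · linear_combination (n : F) * ent x 0 0 * ht - (n : F) * hd
    · linear_combination (n : F) * ent x 0 1 * ht
    · linear_combination (n : F) * ent x 1 0 * ht
    · linear_combination (n : F) * ent x 1 1 * ht - (n : F) * hd

theorem pow_char {p : ℕ} [CharP F p] {x : SL2 F} (ht : tr x = 2) : x ^ p = 1 := by
  obtain ⟨i1, i2, i3, i4⟩ := pow_ent ht p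
  rw [CharP.cast_eq_zero, zero_mul] at i1 i2 i3 i4
  refine ext_ent ?_ ?_ ?_ ?_
  · rw [i1, add_zero, ent_one_00]
  · rw [i2, ent_one_01]
  · rw [i3, ent_one_10]
  · rw [i4, add_zero, ent_one_11]

/-- elements of odd prime order `r ≠ p` have trace `≠ ± 2` -/
theorem tr_ne {p : ℕ} [hp : Fact p.Prime] [CharP F p] {r : ℕ} (hr : r.Prime) (hr2 : r ≠ 2) (hrp : r ≠ p)
    {e : SL2 F} (her : e ^ r = 1) (he : e ≠ 1) : tr e ^ 2 ≠ 4 := by
  intro h
  have h3 : (tr e - 2) * (tr e + 2) = 0 := by linear_combination h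
  have hcop : Nat.Coprime r (2 * p) :=
    Nat.Coprime.mul_right ((Nat.coprime_primes hr Nat.prime_two).2 hr2) ((Nat.coprime_primes hr hp.out).2 hrp)
  have key : e ^ (2 * p) = 1 := by
    rcases mul_eq_zero.1 h3 with h4 | h4
    · rw [mul_comm, pow_mul, pow_char (sub_eq_zero.1 h4), one_pow]
    · have h5 : tr (-e) = 2 := by
        have h6 : tr (-e) = -tr e := by
          unfold tr ent
          simp
          ring
        rw [h6]
        linear_combination -h4
      have h6 : (-e) ^ p = 1 := pow_char h5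
      have h7 : (-e) ^ 2 = e ^ 2 := by rw [pow_two, pow_two, neg_mul_neg]
      rw [pow_mul, ← h7, ← pow_mul, mul_comm, pow_mul, h6, one_pow]
  have h8 : orderOf e ∣ 1 := by
    rw [← hcop.gcd_eq_one]
    exact Nat.dvd_gcd (orderOf_dvd_of_pow_eq_one her) (orderOf_dvd_of_pow_eq_one key)
  exact he (orderOf_eq_one_iff.1 (Nat.dvd_one.1 h8))

/-- a nontrivial element of trace two is conjugate to an upper unitriangular one -/
theorem conj_up {x : SL2 F} (ht : tr x = 2) : ∃ (g : SL2 F) (a : F), g⁻¹ * x * g = up a := by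
  have hd := det_eq x
  unfold tr at ht
  by_cases hc : ent x 1 0 = 0
  · refine ⟨1, ent x 0 1, ?_⟩
    rw [inv_one, one_mul, mul_one]
    rw [hc, mul_zero, sub_zero] at hd
    have h1 : ent x 0 0 = 1 := by
      have : (ent x 0 0 - 1) ^ 2 = 0 := by linear_combination ent x 0 0 * ht - hd
      exact sub_eq_zero.1 (pow_eq_zero_iff (by norm_num) |>.1 this)
    refine ext_ent ?_ ?_ ?_ ?_
    · rw [up_00, h1]
    · rw [up_01]
    · rw [up_10, hc]
    · rw [up_11]
      linear_combination ht - h1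
  · refine ⟨mk (ent x 0 0 - 1) (-(ent x 1 0)⁻¹) (ent x 1 0) 0 (by field_simp; ring), -(ent x 1 0)⁻¹, ?_⟩
    rw [mul_assoc, inv_mul_eq_iff_eq_mul]
    refine ext_ent ?_ ?_ ?_ ?_ <;> simp only [ent_mul, mk_00, mk_01, mk_10, mk_11, up_00, up_01, up_10, up_11]
    · linear_combination ent x 0 0 * ht - hd
    · field_simp
      ring
    · field_simp
      linear_combination ent x 1 0 * ht
    · field_simp
      ring

/-- the Borel subgroup -/
def Bo (F : Type u) [Field F] : Subgroup (SL2 F) where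
  carrier := {x | ent x 1 0 = 0}
  one_mem' := ent_one_10
  mul_mem' := by
    intro x y hx hy
    change ent (x * y) 1 0 = 0
    rw [ent_mul, show ent x 1 0 = 0 from hx, show ent y 1 0 = 0 from hy]
    ring
  inv_mem' := by
    intro x hx
    change ent x⁻¹ 1 0 = 0
    rw [ent_inv, mk_10, show ent x 1 0 = 0 from hx, neg_zero]

theorem mem_Bo {x : SL2 F} : x ∈ Bo F ↔ ent x 1 0 = 0 := Iff.rfl

theorem Bo_ne {x : SL2 F} (hx : x ∈ Bo F) : ent x 0 0 * ent x 1 1 = 1 := by
  have := det_eq x
  rw [mem_Bo.1 hx] at this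
  linear_combination this

theorem card_Bo [Fintype F] : Nat.card (Bo F) = Fintype.card F * (Fintype.card F - 1) := by
  classical
  have e : ↥(Bo F) ≃ Fˣ × F :=
    { toFun := fun x => (Units.mkOfMulEqOne _ _ (Bo_ne x.2), ent x 0 1)
      invFun := fun t => ⟨mk (t.1 : F) t.2 0 ((t.1⁻¹ : Fˣ) : F) (by simp), mk_10 _ _ _ _ _⟩
      left_inv := by
        intro x
        apply Subtype.ext
        have h := Bo_ne x.2
        refine ext_ent ?_ ?_ ?_ ?_
        · rw [mk_00]; rfl
        · rw [mk_01]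
        · rw [mk_10]; exact (mem_Bo.1 x.2).symm
        · rw [mk_11]; rfl
      right_inv := by
        rintro ⟨t, b⟩
        refine Prod.ext (Units.ext ?_) ?_
        · rfl
        · rfl }
  rw [Nat.card_congr e, Nat.card_prod, Nat.card_units, Nat.card_eq_fintype_card, mul_comm]

end mat

section grp

variable {F : Type u} [Field F] [Fintype F]

/-- a subgroup centralising a semisimple non-central element has order at most `q + 1` -/
theorem card_le_of_comm (h2 : (2 : F) ≠ 0) {e : SL2 F} (he : tr e ^ 2 ≠ 4) {Y : Subgroup (SL2 F)}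
    (hY : ∀ y ∈ Y, e * y = y * e) : Nat.card Y ≤ Fintype.card F + 1 := by
  classical
  have hΔ : tr e ^ 2 - 4 ≠ 0 := sub_ne_zero.2 he
  have h4 : (4 : F) ≠ 0 := by
    have : (4 : F) = 2 * 2 := by norm_num
    rw [this]
    exact mul_ne_zero h2 h2
  choose κ k1 k2 k3 using fun y : Y => exists_kappa he (hY y y.2)
  have hrel : ∀ y : Y, κ y ^ 2 * (tr e ^ 2 - 4) = (tr (y : SL2 F) - 2) * (tr (y : SL2 F) - 2 + 4) := by
    intro y
    have d1 := disc e
    have d2 := disc (y : SL2 F)
    rw [k1, k2, k3] at d2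
    linear_combination d2 - κ y ^ 2 * d1
  have t1 : tr (1 : SL2 F) = 2 := by unfold tr; rw [ent_one_00, ent_one_11]; norm_num
  have hτ : ∀ y : Y, y ≠ 1 → tr (y : SL2 F) - 2 ≠ 0 := by
    intro y hy h
    apply hy
    have h3 := hrel y
    rw [h, zero_mul] at h3
    have h5 : κ y = 0 := by
      have := (mul_eq_zero.1 h3).resolve_right hΔ
      exact pow_eq_zero_iff (by norm_num) |>.1 this
    apply Subtype.ext
    refine ext_tr h2 ?_ ?_ ?_ ?_
    · rw [Subgroup.coe_one, t1]; exact sub_eq_zero.1 h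
    · rw [k1, h5, zero_mul]; rfl
    · rw [k2, h5, zero_mul]; rfl
    · rw [k3, h5, zero_mul]
      unfold df
      rw [Subgroup.coe_one, ent_one_00, ent_one_11, sub_self]
  let f : Y → Option F := fun y => if y = 1 then none else some (κ y / (tr (y : SL2 F) - 2))
  have hf : Function.Injective f := by
    intro y y' h
    by_cases hy : y = 1
    · by_cases hy' : y' = 1
      · rw [hy, hy']
      · simp only [f, hy, hy', if_true, if_false] at h
        exact absurd h (by simp)
    · by_cases hy' : y' = 1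
      · simp only [f, hy, hy', if_true, if_false] at h
        exact absurd h (by simp)
      · simp only [f, hy, hy', if_false, Option.some.injEq] at h
        have n1 := hτ y hy
        have n2 := hτ y' hy'
        have r1 := hrel y
        have r2 := hrel y'
        rw [div_eq_div_iff n1 n2] at h
        have e1 : tr (y : SL2 F) = tr (y' : SL2 F) := by
          have h5 : (tr (y : SL2 F) - 2) * (tr (y' : SL2 F) - 2) * 4 * (tr (y : SL2 F) - tr (y' : SL2 F)) = 0 := by
            have h6 : κ y ^ 2 * (tr e ^ 2 - 4) * (tr (y' : SL2 F) - 2) ^ 2 =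
                κ y' ^ 2 * (tr e ^ 2 - 4) * (tr (y : SL2 F) - 2) ^ 2 := by
              have h7 : (κ y * (tr (y' : SL2 F) - 2)) ^ 2 = (κ y' * (tr (y : SL2 F) - 2)) ^ 2 := by rw [h]
              linear_combination (tr e ^ 2 - 4) * h7
            rw [r1, r2] at h6
            linear_combination -h6
          have h6 := (mul_eq_zero.1 h5).resolve_left (mul_ne_zero (mul_ne_zero n1 n2) h4)
          exact sub_eq_zero.1 h6
        have e2 : κ y = κ y' := by
          rw [e1] at h
          exact mul_right_cancel₀ n2 h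
        apply Subtype.ext
        refine ext_tr h2 e1 ?_ ?_ ?_
        · rw [k1, k1, e2]
        · rw [k2, k2, e2]
        · rw [k3, k3, e2]
  have h1 := Nat.card_le_card_of_injective f hf
  rw [Nat.card_eq_fintype_card (α := Option F), Fintype.card_option] at h1
  exact h1

theorem card_le_of_elt {p : ℕ} [hp : Fact p.Prime] [CharP F p] (h2 : (2 : F) ≠ 0) {Y : Subgroup (SL2 F)}
    (hw : ∀ w ∈ Y, w * w ≠ -1) {r : ℕ} (hr : r.Prime) (hr2 : r ≠ 2) (hrp : r ≠ p) {e : SL2 F} (her : e ^ r = 1)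
    (he : e ≠ 1) (hc : ∀ y ∈ Y, e * (y * e * y⁻¹) = y * e * y⁻¹ * e) : Nat.card Y ≤ Fintype.card F + 1 := by
  have ht := tr_ne hr hr2 hrp her he
  refine card_le_of_comm h2 ht fun y hy => ?_
  rcases eq_or_inv h2 ht (hc y hy) (tr_conj e y) with h | h
  · rw [mul_inv_eq_iff_eq_mul] at h
    exact h.symm
  · exact absurd (sq_of_inv ht h) (hw y hy)

/-- **Subgroups without elements of order four.** -/
theorem odd_sl {p : ℕ} [hp : Fact p.Prime] [CharP F p] (h2 : (2 : F) ≠ 0) (Y : Subgroup (SL2 F))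
    (hY : (-1 : SL2 F) ∈ Y) (hw : ∀ w ∈ Y, w * w ≠ -1) (hbig : Fintype.card F + 1 < Nat.card Y) :
    Nat.card Y ∣ Fintype.card F * (Fintype.card F - 1) ∧
      (∀ r : ℕ, r.Prime → r ≠ 2 → r ≠ p → ∀ D : Subgroup (SL2 F), D ≤ Y → IsPGroup r D →
        (∀ y ∈ Y, ∀ x ∈ D, y * x * y⁻¹ ∈ D) → D = ⊥) ∧ ¬ 4 ∣ Nat.card Y := by
  classical
  have hm1 : (-1 : SL2 F) ≠ 1 := by
    intro h
    have h1 := congrArg (fun x : SL2 F => ent x 0 0) h
    simp only [ent_one_00] at h1
    have h3 : ent (-1 : SL2 F) 0 0 = -1 := by simp [ent]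
    rw [h3] at h1
    exact h2 (by linear_combination -h1)
  have hdg : (dg (-1) (neg_ne_zero.2 one_ne_zero) : SL2 F) = -1 := by
    refine ext_ent ?_ ?_ ?_ ?_ <;> simp [ent, dg, mk]
  have hsq : ∀ x : SL2 F, x * x = 1 → x = 1 ∨ x = -1 := by
    intro x hx
    rcases Cfsg.Agent.Cit.HexBase.sl_sq_one h2 hx with h | h
    · exact Or.inl h
    · exact Or.inr (h.trans hdg)
  have h4 : ¬ 4 ∣ Nat.card Y := by
    intro h
    have hf : Fact (Nat.Prime 2) := ⟨Nat.prime_two⟩
    obtain ⟨K, hK⟩ := Sylow.exists_subgroup_card_pow_prime (G := Y) 2 (n := 2) ((dvd_of_eq (by norm_num : 2 ^ 2 = 4)).trans h)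
    have hK1 : ∀ k ∈ K, (k : SL2 F) = 1 ∨ (k : SL2 F) = -1 := by
      intro k hk
      have h5 : (⟨k, hk⟩ : K) ^ Nat.card K = 1 := pow_card_eq_one'
      rw [hK] at h5
      have h5' : (k : SL2 F) ^ 2 ^ 2 = 1 := congrArg (fun x : K => ((x : Y) : SL2 F)) h5
      have h6 : ((k : SL2 F) * k) * ((k : SL2 F) * k) = 1 := by
        rw [← pow_two, ← pow_two, ← pow_mul]
        exact h5'
      rcases hsq _ h6 with h7 | h7
      · exact hsq _ h7
      · exact absurd h7 (hw k k.2)
    have h5 : (K : Set Y) ⊆ {1, ⟨-1, hY⟩} := by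
      intro k hk
      rcases hK1 k hk with h6 | h6
      · left; exact Subtype.ext h6
      · right; exact Subtype.ext h6
    have h6 := Set.ncard_le_ncard h5 (Set.toFinite _)
    have h7 : (K : Set Y).ncard = 2 ^ 2 := by rw [← Nat.card_coe_set_eq]; exact hK
    have h8 : ({1, ⟨-1, hY⟩} : Set Y).ncard ≤ 2 := Set.ncard_insert_le _ _ |>.trans (by rw [Set.ncard_singleton])
    omega
  -- elements of normal elementary abelian subgroups
  have key : ∀ (N : Subgroup Y), N.Normal → Odd (Nat.card N) → N ≠ ⊥ → ∃ (r : ℕ) (e : Y), r.Prime ∧ r ≠ 2 ∧ e ∈ N ∧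
      (e : SL2 F) ≠ 1 ∧ (e : SL2 F) ^ r = 1 ∧ (∀ y ∈ Y, (e : SL2 F) * (y * e * y⁻¹) = y * e * y⁻¹ * e) ∧ r = p := by
    intro N hN hNo hN1
    obtain ⟨r, R, hr, hr2, hRN, hR1, hRn, hRr, hRc⟩ := exists_elemAb hN hNo hN1
    obtain ⟨e, heR, he1⟩ := (Subgroup.bot_or_exists_ne_one R).resolve_left hR1
    have he1' : (e : SL2 F) ≠ 1 := fun h => he1 (Subtype.ext h)
    have her : (e : SL2 F) ^ r = 1 := congrArg Subtype.val (hRr e heR)
    have hc : ∀ y ∈ Y, (e : SL2 F) * (y * e * y⁻¹) = y * e * y⁻¹ * e := fun y hy =>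
      congrArg Subtype.val (hRc e heR _ (hRn.conj_mem e heR ⟨y, hy⟩))
    refine ⟨r, e, hr, hr2, hRN heR, he1', her, hc, ?_⟩
    by_contra hrp
    have := card_le_of_elt h2 hw hr hr2 hrp her he1' hc
    omega
  refine ⟨?_, ?_, h4⟩
  · -- the odd complement
    obtain ⟨m, hm⟩ : ∃ m : Y, m = ⟨-1, hY⟩ := ⟨_, rfl⟩
    have hmc : ∀ y : Y, y * m = m * y := by
      intro y
      apply Subtype.ext
      rw [hm]
      change (y : SL2 F) * -1 = -1 * y
      rw [mul_neg, neg_mul, mul_one, one_mul]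
    have hmo : orderOf m = 2 := by
      have hf : Fact (Nat.Prime 2) := ⟨Nat.prime_two⟩
      refine orderOf_eq_prime ?_ ?_
      · apply Subtype.ext
        rw [hm]
        change (-1 : SL2 F) ^ 2 = 1
        rw [pow_two, neg_mul_neg, one_mul]
      · rw [hm]
        exact fun h => hm1 (congrArg Subtype.val h)
    let Z : Subgroup Y := Subgroup.zpowers m
    have hZ2 : Nat.card Z = 2 := by rw [Nat.card_zpowers, hmo]
    have hZc : Z ≤ Subgroup.center Y := by
      rw [Subgroup.zpowers_le]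
      exact Subgroup.mem_center_iff.2 hmc
    have hZn : Z.Normal := ⟨fun x hx g => by
      have h := Subgroup.mem_center_iff.1 (hZc hx) g
      rw [h, mul_inv_cancel_right]
      exact hx⟩
    have hZi := Z.card_mul_index
    rw [hZ2] at hZi
    have hodd : Odd Z.index := by
      rw [← Nat.not_even_iff_odd]
      rintro ⟨k, hk⟩
      apply h4
      exact ⟨k, by rw [← hZi, hk]; ring⟩
    obtain ⟨H, hH⟩ := Subgroup.exists_right_complement'_of_coprime (N := Z) (by
      rw [hZ2]; exact Nat.coprime_two_left.2 hodd)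
    have hHc := hH.card_mul_card
    rw [hZ2, ← hZi] at hHc
    have hHc' : Nat.card H = Z.index := Nat.eq_of_mul_eq_mul_left (by norm_num) hHc
    have hHi : H.index = 2 := by
      have h5 := H.card_mul_index
      rw [hHc', ← hZi, mul_comm] at h5
      exact Nat.eq_of_mul_eq_mul_right (Nat.pos_of_ne_zero Subgroup.index_ne_zero_of_finite) h5
    have hHn : H.Normal := Subgroup.normal_of_index_eq_two hHi
    have hH1 : H ≠ ⊥ := by
      intro h
      rw [h, Subgroup.card_bot] at hHc'
      have : 1 < Fintype.card F := Fintype.one_lt_card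
      omega
    obtain ⟨r, e, hr, hr2, -, he1, her, hc, hrp⟩ := key H hHn (by rw [hHc']; exact hodd) hH1
    subst hrp
    -- the trace is two
    have ht : tr (e : SL2 F) = 2 := by
      have h5 : ((e : SL2 F) : Matrix (Fin 2) (Fin 2) F) ^ r = 1 := by
        rw [← Matrix.SpecialLinearGroup.coe_pow, her, Matrix.SpecialLinearGroup.coe_one]
      have h6 : (((e : SL2 F) : Matrix (Fin 2) (Fin 2) F) - 1) ^ r = 0 := by
        rw [sub_pow_char_of_commute _ (Commute.one_right _), h5, one_pow, sub_self]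
      have h7 := Matrix.isNilpotent_trace_of_isNilpotent (⟨r, h6⟩ : IsNilpotent (((e : SL2 F) : Matrix (Fin 2) (Fin 2) F) - 1))
      have h8 := h7.eq_zero
      rw [Matrix.trace_fin_two] at h8
      unfold tr ent
      simp at h8
      linear_combination h8
    obtain ⟨g, a, hga⟩ := conj_up ht
    have ha : a ≠ 0 := by
      rintro rfl
      apply he1
      rw [up_zero] at hga
      calc (e : SL2 F) = g * (g⁻¹ * e * g) * g⁻¹ := by group
        _ = 1 := by rw [hga]; group
    have hB : ∀ y ∈ Y, g⁻¹ * y * g ∈ Bo F := by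
      intro y hy
      have h5 := hc y hy
      obtain ⟨y', hy'⟩ : ∃ y', y' = g⁻¹ * y * g := ⟨_, rfl⟩
      have h6 : up a * (y' * up a * y'⁻¹) = y' * up a * y'⁻¹ * up a := by
        rw [← hga, hy']
        calc g⁻¹ * e * g * (g⁻¹ * y * g * (g⁻¹ * e * g) * (g⁻¹ * y * g)⁻¹) = g⁻¹ * (e * (y * e * y⁻¹)) * g := by group
          _ = _ := by rw [h5]; group
      rw [← hy']
      have h7 := (comm_rel h6).1
      have h8 := (comm_rel h6).2.2
      rw [up_01, up_10, zero_mul, ent_inv y'] at h7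
      simp only [ent_mul, mk_00, mk_10, up_00, up_01, up_10, up_11] at h7
      have h9 : a * (a * ent y' 1 0 ^ 2) = 0 := by linear_combination -h7
      have h10 := (mul_eq_zero.1 ((mul_eq_zero.1 h9).resolve_left ha)).resolve_left ha
      exact pow_eq_zero_iff (by norm_num) |>.1 h10
    have h5 : Y.map (MulAut.conj g⁻¹).toMonoidHom ≤ Bo F := by
      rintro _ ⟨y, hy, rfl⟩
      have := hB y hy
      change g⁻¹ * y * g⁻¹⁻¹ ∈ Bo F
      rwa [inv_inv]
    have h6 := Subgroup.card_dvd_of_le h5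
    rw [Subgroup.card_map_of_injective (MulAut.conj g⁻¹).injective, card_Bo] at h6
    exact h6
  · intro r hr hr2 hrp D hDY hDp hDn
    by_contra hD
    have hDn' : (D.subgroupOf Y).Normal := ⟨fun x hx y => hDn y y.2 x hx⟩
    have hDp' : IsPGroup r (D.subgroupOf Y) := hDp.comap_of_injective Y.subtype Y.subtype_injective
    have hrf : Fact r.Prime := ⟨hr⟩
    have hDo : Odd (Nat.card (D.subgroupOf Y)) := by
      obtain ⟨k, hk⟩ := IsPGroup.iff_card.1 hDp'
      rw [hk]
      exact (hr.odd_of_ne_two hr2).pow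
    have hD1 : D.subgroupOf Y ≠ ⊥ := by
      rw [Ne, Subgroup.subgroupOf_eq_bot, disjoint_iff, inf_eq_left.2 hDY]
      exact hD
    obtain ⟨r', e, hr', -, heD, he1, her, -, hr'p⟩ := key _ hDn' hDo hD1
    subst hr'p
    obtain ⟨k, hk⟩ := hDp ⟨e, heD⟩
    have h5 : (e : SL2 F) ^ r ^ k = 1 := congrArg Subtype.val hk
    have hcop : Nat.Coprime (r ^ k) r' := Nat.Coprime.pow_left k ((Nat.coprime_primes hr hr').2 hrp)
    have h6 := Nat.dvd_gcd (orderOf_dvd_of_pow_eq_one h5) (orderOf_dvd_of_pow_eq_one her)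
    rw [hcop.gcd_eq_one, Nat.dvd_one, orderOf_eq_one_iff] at h6
    exact he1 h6

end grp

end Cfsg.Agent.H917.IFG
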