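import Cfsg.Agent.H917.IFG.Gen

/-!
# S5719, cells `g2`, `td4` (`q` odd), 2-rank one: no outer elements

`no_outer` : `z` the only involution of `C_A(z)`, `K 1 ≤ A` or `K 4 ≤ A`; then `C_A(z) ≤ K 1 K 4`.
-/

set_option autoImplicit false

namespace Cfsg.Agent.Cit.HexBase

open Cfsg.Agent.SplitTwo Cfsg.Agent.TitsThree.RankTwoZ Cfsg.Agent.Lib.SL2Mat
  Cfsg.Agent.TitsThree.RankTwoIdx Cfsg.Agent.TitsThree.RankTwoRGD
open scoped commutatorElement Pointwise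

section sl

variable {K : Type*} [Field K]

/-- the square of an element of the coset of a non-square -/
theorem no_one (h2 : (2 : K) ≠ 0) {s : K} (hs : s ≠ 0) (hsq : ¬ IsSquare s) (w : SL2 K)
    (h : w * conjGL (dgl s hs) w * dg s hs = 1) : False := by
  have h0 : w * conjGL (dgl s hs) w = dg s⁻¹ (inv_ne_zero hs) := by
    have e : dg s⁻¹ (inv_ne_zero hs) * dg s hs = 1 := by
      rw [dg_mul_dg]
      refine ext_ent ?_ ?_ ?_ ?_ <;> simp [hs]
    exact mul_right_cancel (h.trans e.symm)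
  have h00 : ent (w * conjGL (dgl s hs) w) 0 0 = 1 * s⁻¹ := by rw [h0, dg_00, one_mul]
  have h01 : ent (w * conjGL (dgl s hs) w) 0 1 = 0 := by rw [h0, dg_01]
  have h10 : ent (w * conjGL (dgl s hs) w) 1 0 = 0 := by rw [h0, dg_10]
  rcases sq_cases hs w 1 (one_mul 1) h00 h01 h10 with h3 | ⟨a, ha, -, h3⟩
  · rw [conjGL_dgl_ent] at h00
    simp only [ent_mul, mk_00, mk_10] at h00
    have hd := det_eq w
    have h4 : (2 : K) = 0 := by
      field_simp at h00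
      linear_combination -h00 + ent w 0 0 * h3 - hd
    exact h2 h4
  · exact hsq ⟨a⁻¹, by rw [h3, ← mul_inv, pow_two]⟩

theorem wm_conj {s : K} (hs : s ≠ 0) :
    wm (1 : K) one_ne_zero * conjGL (dgl s hs) (wm 1 one_ne_zero) * dg s hs = dg (-1) (neg_ne_zero.2 one_ne_zero) := by
  rw [conjGL_dgl_ent]
  refine ext_ent ?_ ?_ ?_ ?_ <;> simp [ent_mul, hs]

end sl

namespace HexGrp

universe u

variable {E : Type*} [Field E] {σ : E ≃+* E} {L : Type u} [Group L] (c : HexGrp σ L)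

theorem mem_L0 {g : L} (hg : g ∈ c.L0) : ∃ x y, g = c.pb x * c.p4 y := by
  have h1 : c.L0 = (MonoidHom.noncommCoprod c.pb c.p4 fun x y => c.comm_pb_p4 x y).range := by
    exact (MonoidHom.noncommCoprod_range (f := c.pb) (g := c.p4) (comm := fun x y => c.comm_pb_p4 x y)).symm
  rw [h1] at hg
  obtain ⟨⟨x, y⟩, rfl⟩ := hg
  exact ⟨x, y, rfl⟩

/-- the square of `pb x * p4 w * pa (dg t)` -/
theorem sq_form [Finite E] (h2 : (2 : E) ≠ 0) (x : SL2 E) (w : SL2 ↥(fx σ)) (t : ↥(fx σ)) (ht : t ≠ 0)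
    (ht' : (t : E)⁻¹ ≠ 0) :
    c.pb x * c.p4 w * c.pa (dg t ht) * (c.pb x * c.p4 w * c.pa (dg t ht)) =
      c.pb (x * conjGL (dgl (t : E)⁻¹ ht') x * dg (t : E)⁻¹ ht') * c.p4 (w * conjGL (dgl t ht) w * dg t ht) := by
  have hs' : (t : E) ≠ 0 := fun h => ht (Subtype.ext h)
  obtain ⟨h0, hh0⟩ : ∃ h0 : L, h0 = c.pa (dg t ht) := ⟨_, rfl⟩
  have hA : c.Act h0 (t : E)⁻¹ ((t : E) ^ 2) := by rw [hh0]; exact c.act_a t ht
  obtain ⟨x', hx'⟩ : ∃ x', x' = conjGL (dgl (t : E)⁻¹ hA.ne1) x := ⟨_, rfl⟩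
  obtain ⟨w', hw'⟩ : ∃ w', w' = conjGL (dgl t ht) w := ⟨_, rfl⟩
  have e1 : h0 * c.pb x * h0⁻¹ = c.pb x' := by rw [hx']; exact hA.pb x
  have e4 : h0 * c.p4 w * h0⁻¹ = c.p4 w' := by rw [hw', hh0]; exact c.pa_dg_p4 h2 t ht w
  have e0 : h0 * h0 = c.pb (dg (t : E)⁻¹ ht') * c.p4 (dg t ht) := by
    have e : dg (t : E)⁻¹ ht' = (dg (t : E) hs')⁻¹ := by
      rw [eq_inv_iff_mul_eq_one, dg_mul_dg]
      refine ext_ent ?_ ?_ ?_ ?_ <;> simp [hs']
    rw [hh0, ← map_mul, dg_mul_dg, e, map_inv, ← c.pa_dg_sq t ht]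
    congr 1
    refine ext_ent ?_ ?_ ?_ ?_ <;> simp <;> ring
  rw [← hh0, ← hx', ← hw']
  have k1 := c.comm_pb_p4 x' w
  have k2 := c.comm_pb_p4 (dg (t : E)⁻¹ ht') (w * w')
  simp only [map_mul] at k2 ⊢
  symm
  calc c.pb x * c.pb x' * c.pb (dg (t : E)⁻¹ ht') * (c.p4 w * c.p4 w' * c.p4 (dg t ht))
      = c.pb x * c.pb x' * (c.pb (dg (t : E)⁻¹ ht') * (c.p4 w * c.p4 w')) * c.p4 (dg t ht) := by group
    _ = c.pb x * (c.pb x' * c.p4 w) * c.p4 w' * (c.pb (dg (t : E)⁻¹ ht') * c.p4 (dg t ht)) := by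
      rw [k2]; group
    _ = c.pb x * (c.p4 w * c.pb x') * c.p4 w' * (h0 * h0) := by rw [k1, e0]
    _ = c.pb x * c.p4 w * h0 * (c.pb x * c.p4 w * h0) := by rw [← e1, ← e4]; group

theorem z_mem_L0 : c.z ∈ c.L0 := c.K1_le_L0 c.z_mem_K1

/-- `z` commutes with `K 1 K 4 T 0` -/
theorem comm_z_form [Finite E] (x : SL2 E) (w : SL2 ↥(fx σ)) (t : ↥(fx σ)) (ht : t ≠ 0) :
    c.pb x * c.p4 w * c.pa (dg t ht) * c.z = c.z * (c.pb x * c.p4 w * c.pa (dg t ht)) := by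
  have h1 := c.z_pb x
  have h3 := c.z_p4 w
  have h4 := c.T0_comm ⟨_, _, c.act_a t ht⟩ c.z_mem_T0
  calc c.pb x * c.p4 w * c.pa (dg t ht) * c.z = c.pb x * c.p4 w * (c.pa (dg t ht) * c.z) := by group
    _ = c.pb x * (c.p4 w * c.z) * c.pa (dg t ht) := by rw [h4]; group
    _ = (c.pb x * c.z) * c.p4 w * c.pa (dg t ht) := by rw [← h3]; group
    _ = _ := by rw [← h1]; group

section

variable {A : Subgroup L}

/-- inner elements of order two modulo `K 1` -/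
theorem inner1 [Finite E] (h2 : (2 : E) ≠ 0) (h1 : ∀ s ∈ A, s * c.z = c.z * s → orderOf s = 2 → s = c.z)
    (hK : c.K1 ≤ A) {y : L} (hy : y ∈ A) (hy0 : y ∈ c.L0) (hyy : y * y ∈ c.K1) : y ∈ c.K1 := by
  obtain ⟨x, w, rfl⟩ := c.mem_L0 hy0
  have hw : c.p4 w ∈ A := by
    have := mul_mem (inv_mem (hK ⟨x, rfl⟩)) hy
    rwa [inv_mul_cancel_left] at this
  have k1 := c.comm_pb_p4 x w
  have e1 : c.pb x * c.p4 w * (c.pb x * c.p4 w) = c.pb (x * x) * c.p4 (w * w) := by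
    rw [map_mul, map_mul]
    calc _ = c.pb x * (c.p4 w * c.pb x) * c.p4 w := by group
      _ = _ := by rw [← k1]; group
  rw [e1] at hyy
  have h3 : c.p4 (w * w) ∈ c.K1 := by
    have := mul_mem (inv_mem (show c.pb (x * x) ∈ c.K1 from ⟨_, rfl⟩)) hyy
    rwa [inv_mul_cancel_left] at this
  have hwK : c.p4 w ∈ c.K1 := by
    obtain ⟨x', hx'⟩ := h3
    have h5 := c.eq_of_pb_eq_p4 hx'
    rw [hx', map_mul] at h5
    rcases h5 with h5 | h5
    · rcases c.p4_sq h2 h5 with h | h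
      · rw [h]; exact one_mem _
      · rw [h]; exact c.z_mem_K1
    · obtain ⟨s, hs⟩ : ∃ s, s = c.n1 * c.p4 w := ⟨_, rfl⟩
      have hn1w : c.n1 * c.p4 w = c.p4 w * c.n1 := c.comm_pb_p4 _ w
      have hsA : s ∈ A := by rw [hs]; exact mul_mem (hK c.n1_mem_K1) hw
      have hss : s * s = 1 := by
        rw [hs]
        calc c.n1 * c.p4 w * (c.n1 * c.p4 w) = c.n1 * (c.p4 w * c.n1) * c.p4 w := by group
          _ = (c.n1 * c.n1) * (c.p4 w * c.p4 w) := by rw [← hn1w]; group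
          _ = 1 := by rw [n1_mul_n1, h5, c.z_sq]
      have hsz : s * c.z = c.z * s := by
        rw [hs]
        calc c.n1 * c.p4 w * c.z = c.n1 * (c.p4 w * c.z) := by group
          _ = (c.n1 * c.z) * c.p4 w := by rw [← c.z_p4]; group
          _ = _ := by rw [n1z]; group
      have hcase : s = 1 ∨ s = c.z := by
        by_cases hs1 : s = 1
        · exact Or.inl hs1
        · exact Or.inr (h1 s hsA hsz (orderOf_eq_prime (by rw [pow_two, hss]) hs1))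
      have hsK : s ∈ c.K1 := by
        rcases hcase with h | h
        · rw [h]; exact one_mem _
        · rw [h]; exact c.z_mem_K1
      have : c.p4 w = c.n1⁻¹ * s := by rw [hs]; group
      rw [this]
      exact mul_mem (inv_mem c.n1_mem_K1) hsK
  exact mul_mem ⟨x, rfl⟩ hwK

/-- inner elements of order two modulo `K 4` -/
theorem inner4 [Finite E] (h2 : (2 : E) ≠ 0) (h1 : ∀ s ∈ A, s * c.z = c.z * s → orderOf s = 2 → s = c.z)
    (hK : c.K4 ≤ A) {y : L} (hy : y ∈ A) (hy0 : y ∈ c.L0) (hyy : y * y ∈ c.K4) : y ∈ c.K4 := by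
  obtain ⟨x, w, rfl⟩ := c.mem_L0 hy0
  have k1 := c.comm_pb_p4 x w
  have hx : c.pb x ∈ A := by
    have := mul_mem hy (inv_mem (hK ⟨w, rfl⟩))
    rwa [mul_inv_cancel_right] at this
  have e1 : c.pb x * c.p4 w * (c.pb x * c.p4 w) = c.pb (x * x) * c.p4 (w * w) := by
    rw [map_mul, map_mul]
    calc _ = c.pb x * (c.p4 w * c.pb x) * c.p4 w := by group
      _ = _ := by rw [← k1]; group
  rw [e1] at hyy
  have h3 : c.pb (x * x) ∈ c.K4 := by
    have := mul_mem hyy (inv_mem (show c.p4 (w * w) ∈ c.K4 from ⟨_, rfl⟩))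
    rwa [mul_inv_cancel_right] at this
  have hxK : c.pb x ∈ c.K4 := by
    obtain ⟨x', hx'⟩ := h3
    have h5 := c.eq_of_pb_eq_p4 hx'.symm
    rw [map_mul] at h5
    rcases h5 with h5 | h5
    · rcases c.pb_sq h2 h5 with h | h
      · rw [h]; exact one_mem _
      · rw [h]; exact c.z_mem_K4
    · obtain ⟨s, hs⟩ : ∃ s, s = c.pb x * c.n4 := ⟨_, rfl⟩
      have hn4x : c.pb x * c.n4 = c.n4 * c.pb x := c.comm_pb_p4 x _
      have hsA : s ∈ A := by rw [hs]; exact mul_mem hx (hK c.n4_mem_K4)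
      have hss : s * s = 1 := by
        rw [hs]
        calc c.pb x * c.n4 * (c.pb x * c.n4) = c.pb x * (c.n4 * c.pb x) * c.n4 := by group
          _ = (c.pb x * c.pb x) * (c.n4 * c.n4) := by rw [← hn4x]; group
          _ = 1 := by rw [n4_mul_n4, h5, c.z_sq]
      have hsz : s * c.z = c.z * s := by
        rw [hs]
        calc c.pb x * c.n4 * c.z = c.pb x * (c.n4 * c.z) := by group
          _ = (c.pb x * c.z) * c.n4 := by rw [n4z]; group
          _ = _ := by rw [← c.z_pb]; group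
      have hcase : s = 1 ∨ s = c.z := by
        by_cases hs1 : s = 1
        · exact Or.inl hs1
        · exact Or.inr (h1 s hsA hsz (orderOf_eq_prime (by rw [pow_two, hss]) hs1))
      have hsK : s ∈ c.K4 := by
        rcases hcase with h | h
        · rw [h]; exact one_mem _
        · rw [h]; exact c.z_mem_K4
      have : c.pb x = s * c.n4⁻¹ := by rw [hs]; group
      rw [this]
      exact mul_mem hsK (inv_mem c.n4_mem_K4)
  exact mul_mem hxK ⟨w, rfl⟩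

theorem not_sq_of_not_mem {x : SL2 E} {w : SL2 ↥(fx σ)} {t : ↥(fx σ)} {ht : t ≠ 0}
    (hy : c.pb x * c.p4 w * c.pa (dg t ht) ∉ c.L0) : ¬ IsSquare t := fun hs =>
  hy (mul_mem (mul_mem (c.K1_le_L0 ⟨_, rfl⟩) (c.K4_le_L0 ⟨_, rfl⟩)) (c.pa_dg_mem_L0 ht hs))

include c in
theorem not_sq_E (h2 : (2 : E) ≠ 0) {t : ↥(fx σ)} (h : ¬ IsSquare t) : ¬ IsSquare (t : E)⁻¹ := by
  rintro ⟨r, hr⟩
  apply h
  have h3 : (t : E) = (r⁻¹) ^ 2 := by
    rw [inv_pow, pow_two, ← hr, inv_inv]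
  have h4 : σ r⁻¹ = r⁻¹ := c.fix_of_sq h2 (by rw [← h3]; exact t.2)
  exact ⟨⟨r⁻¹, h4⟩, Subtype.ext (by rw [h3, pow_two]; rfl)⟩

/-- outer elements of order two modulo `K 1` -/
theorem outer1 [Finite E] (h2 : (2 : E) ≠ 0) (h1 : ∀ s ∈ A, s * c.z = c.z * s → orderOf s = 2 → s = c.z)
    (hK : c.K1 ≤ A) {y : L} (hy : y ∈ A) (hz : y * c.z = c.z * y) (hy0 : y ∉ c.L0) (hyy : y * y ∈ c.K1) : False := by
  obtain ⟨x, w, t, ht, rfl⟩ := c.mem_CZ_form h2 hz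
  have hs' : (t : E) ≠ 0 := fun h => ht (Subtype.ext h)
  have hns := c.not_sq_of_not_mem hy0
  rw [c.sq_form h2 x w t ht (inv_ne_zero hs')] at hyy
  have h3 : c.p4 (w * conjGL (dgl t ht) w * dg t ht) ∈ c.K1 := by
    have := mul_mem (inv_mem (show c.pb (x * conjGL (dgl (t : E)⁻¹ (inv_ne_zero hs')) x * dg (t : E)⁻¹
      (inv_ne_zero hs')) ∈ c.K1 from ⟨_, rfl⟩)) hyy
    rwa [inv_mul_cancel_left] at this
  obtain ⟨x', hx'⟩ := h3
  have h5 := c.eq_of_pb_eq_p4 hx'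
  rw [hx'] at h5
  have h6 : c.p4 (w * conjGL (dgl t ht) w * dg t ht) = c.z := by
    refine h5.resolve_left fun h => ?_
    exact no_one (two_ne h2) ht hns w (c.p4_inj (h.trans (map_one c.p4).symm))
  obtain ⟨s, hs⟩ : ∃ s, s = c.pb (wm 1 one_ne_zero) * c.p4 w * c.pa (dg t ht) := ⟨_, rfl⟩
  have hsA : s ∈ A := by
    have e : s = c.pb (wm 1 one_ne_zero) * (c.pb x)⁻¹ * (c.pb x * c.p4 w * c.pa (dg t ht)) := by rw [hs]; group
    rw [e]
    exact mul_mem (mul_mem (hK ⟨_, rfl⟩) (inv_mem (hK ⟨_, rfl⟩))) hy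
  have hs0 : s ∉ c.L0 := by
    intro h
    apply hy0
    have e : c.pb x * c.p4 w * c.pa (dg t ht) = c.pb x * (c.pb (wm 1 one_ne_zero))⁻¹ * s := by rw [hs]; group
    rw [e]
    exact mul_mem (mul_mem (c.K1_le_L0 ⟨_, rfl⟩) (inv_mem (c.K1_le_L0 ⟨_, rfl⟩))) h
  have hss : s * s = 1 := by
    rw [hs, c.sq_form h2 _ w t ht (inv_ne_zero hs'), wm_conj, h6]
    exact c.z_sq
  have hsz : s * c.z = c.z * s := by rw [hs]; exact c.comm_z_form _ _ _ _
  have hs1 : s ≠ 1 := by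
    rintro rfl
    exact hs0 (one_mem _)
  have := h1 s hsA hsz (orderOf_eq_prime (by rw [pow_two, hss]) hs1)
  rw [this] at hs0
  exact hs0 c.z_mem_L0

/-- outer elements of order two modulo `K 4` -/
theorem outer4 [Finite E] (h2 : (2 : E) ≠ 0) (h1 : ∀ s ∈ A, s * c.z = c.z * s → orderOf s = 2 → s = c.z)
    (hK : c.K4 ≤ A) {y : L} (hy : y ∈ A) (hz : y * c.z = c.z * y) (hy0 : y ∉ c.L0) (hyy : y * y ∈ c.K4) : False := by
  obtain ⟨x, w, t, ht, rfl⟩ := c.mem_CZ_form h2 hz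
  have hs' : (t : E) ≠ 0 := fun h => ht (Subtype.ext h)
  have hns := c.not_sq_of_not_mem hy0
  rw [c.sq_form h2 x w t ht (inv_ne_zero hs')] at hyy
  have h3 : c.pb (x * conjGL (dgl (t : E)⁻¹ (inv_ne_zero hs')) x * dg (t : E)⁻¹ (inv_ne_zero hs')) ∈ c.K4 := by
    have := mul_mem hyy (inv_mem (show c.p4 (w * conjGL (dgl t ht) w * dg t ht) ∈ c.K4 from ⟨_, rfl⟩))
    rwa [mul_inv_cancel_right] at this
  obtain ⟨x', hx'⟩ := h3
  have h5 := c.eq_of_pb_eq_p4 hx'.symm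
  have h6 : c.pb (x * conjGL (dgl (t : E)⁻¹ (inv_ne_zero hs')) x * dg (t : E)⁻¹ (inv_ne_zero hs')) = c.z := by
    refine h5.resolve_left fun h => ?_
    exact no_one h2 (inv_ne_zero hs') (c.not_sq_E h2 hns) x (c.pb_inj h2 (h.trans (map_one c.pb).symm))
  obtain ⟨s, hs⟩ : ∃ s, s = c.pb x * c.p4 (wm 1 one_ne_zero) * c.pa (dg t ht) := ⟨_, rfl⟩
  have hsy : s = c.p4 (wm 1 one_ne_zero) * (c.p4 w)⁻¹ * (c.pb x * c.p4 w * c.pa (dg t ht)) := by
    have k1 := c.comm_pb_p4 x (wm 1 one_ne_zero)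
    have k2 := c.comm_pb_p4 x w
    rw [hs, k1, k2]
    group
  have hsA : s ∈ A := by
    rw [hsy]
    exact mul_mem (mul_mem (hK ⟨_, rfl⟩) (inv_mem (hK ⟨_, rfl⟩))) hy
  have hs0 : s ∉ c.L0 := by
    intro h
    apply hy0
    have e : c.pb x * c.p4 w * c.pa (dg t ht) = (c.p4 (wm 1 one_ne_zero) * (c.p4 w)⁻¹)⁻¹ * s := by rw [hsy]; group
    rw [e]
    exact mul_mem (inv_mem (mul_mem (c.K4_le_L0 ⟨_, rfl⟩) (inv_mem (c.K4_le_L0 ⟨_, rfl⟩)))) h
  have hss : s * s = 1 := by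
    rw [hs, c.sq_form h2 _ _ t ht (inv_ne_zero hs'), wm_conj, h6, ← z_eq_p4]
    exact c.z_sq
  have hsz : s * c.z = c.z * s := by rw [hs]; exact c.comm_z_form _ _ _ _
  have hs1 : s ≠ 1 := by
    rintro rfl
    exact hs0 (one_mem _)
  have := h1 s hsA hsz (orderOf_eq_prime (by rw [pow_two, hss]) hs1)
  rw [this] at hs0
  exact hs0 c.z_mem_L0

/-- **No outer elements.** -/
theorem no_outer [Finite E] [Finite L] (h2 : (2 : E) ≠ 0)
    (h1 : ∀ s ∈ A, s * c.z = c.z * s → orderOf s = 2 → s = c.z) (hK : c.K1 ≤ A ∨ c.K4 ≤ A) {g : L} (hg : g ∈ A)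
    (hz : g * c.z = c.z * g) : g ∈ c.L0 := by
  have key : ∀ K : Subgroup L, K ≤ c.L0 → (∀ y ∈ A, y * c.z = c.z * y → y * y ∈ K → y ∈ K) → g ∈ c.L0 := by
    intro K hKL hstep
    have hpow : ∀ n : ℕ, ∀ y ∈ A, y * c.z = c.z * y → y ^ (2 ^ n) ∈ K → y ∈ K := by
      intro n
      induction n with
      | zero =>
        intro y _ _ h
        rwa [pow_zero, pow_one] at h
      | succ n ih =>
        intro y hy hyz h
        refine hstep y hy hyz (ih (y * y) (mul_mem hy hy) ?_ ?_)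
        · rw [mul_assoc, hyz, ← mul_assoc, hyz, mul_assoc]
        · rw [← pow_two, ← pow_mul, ← pow_succ']
          exact h
    obtain ⟨n, m, hm, hnm⟩ := Nat.exists_eq_two_pow_mul_odd (orderOf_pos g).ne'
    have hgm : g ^ m ∈ K := by
      refine hpow n _ (pow_mem hg m) ((show Commute g c.z from hz).pow_left m) ?_
      rw [← pow_mul, mul_comm, ← hnm, pow_orderOf_eq_one]
      exact one_mem _
    by_contra hg0
    have hgg : g * g ∈ c.L0 := c.mul_mem_L0 h2 hz hz hg0 hg0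
    obtain ⟨k, rfl⟩ := hm
    apply hg0
    have h3 : g ^ (2 * k + 1) = (g * g) ^ k * g := by rw [pow_succ, pow_mul, pow_two]
    have h4 := hKL hgm
    rw [h3] at h4
    have h5 := mul_mem (inv_mem (pow_mem hgg k)) h4
    rwa [inv_mul_cancel_left] at h5
  rcases hK with hK | hK
  · refine key c.K1 c.K1_le_L0 fun y hy hyz hyy => ?_
    by_cases hy0 : y ∈ c.L0
    · exact c.inner1 h2 h1 hK hy hy0 hyy
    · exact (c.outer1 h2 h1 hK hy hyz hy0 hyy).elim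
  · refine key c.K4 c.K4_le_L0 fun y hy hyz hyy => ?_
    by_cases hy0 : y ∈ c.L0
    · exact c.inner4 h2 h1 hK hy hy0 hyy
    · exact (c.outer4 h2 h1 hK hy hyz hy0 hyy).elim

end

end HexGrp

end Cfsg.Agent.Cit.HexBase
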