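import Cfsg.Agent.Cit.HexCore
import Cfsg.Agent.H203.BdSL2
import Cfsg.Agent.S0205
import Cfsg.Agent.S0215

/-!
# S5719, cells `g2`, `td4` (`q` odd), 2-rank one: `O_p(A) ≠ 1` or `z` is central

`A ≤ T` with an involution `z` which is the only involution of `C_A(z)`, `SL₂(q) ≤ A` with central involution `z`,
normal in `C(z)`, less than `3^((q-1)/2)` involutions in `A`.  Then `z` is central in `A` or `A` has a normal
`p`-subgroup `≠ 1`.  (Z*-theorem, odd order theorem, cross characteristic bound for `SL₂(q)`.)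
-/

set_option autoImplicit false

namespace Cfsg.Agent.H917.IFG

open Cfsg Cfsg.Agent.Cit.HexBase Cfsg.Agent.H912.Bd
open scoped MatrixGroups commutatorElement

universe u v w

/-! ### Automorphisms of elementary abelian groups are matrices -/

theorem exists_gl {A : Type u} [CommGroup A] [Finite A] {r : ℕ} [hr : Fact r.Prime] (hA : ∀ a : A, a ^ r = 1) :
    ∃ (n : ℕ) (f : MulAut A →* GL (Fin n) (ZMod r)), Nat.card A = r ^ n ∧ Function.Injective f := by
  let _ : Module (ZMod r) (Additive A) := AddCommGroup.zmodModule (n := r) (fun a => hA a.toMul)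
  have hfA : Finite (Additive A) := inferInstanceAs (Finite A)
  let ρ : MulAut A →* Module.End (ZMod r) (Additive A) :=
    { toFun := fun s => AddMonoidHom.toZModLinearMap r (MonoidHom.toAdditive s.toMonoidHom)
      map_one' := by
        ext a
        rfl
      map_mul' := fun s s' => by
        ext a
        rfl }
  have hρ : Function.Injective ρ := by
    intro s t h
    ext a
    exact congrArg Additive.toMul (LinearMap.congr_fun h (Additive.ofMul a))
  have h1 := Module.natCard_eq_pow_finrank (K := ZMod r) (V := Additive A)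
  rw [Nat.card_zmod] at h1
  let b : Module.Basis (Fin (Module.finrank (ZMod r) (Additive A))) (ZMod r) (Additive A) :=
    Module.finBasis (ZMod r) (Additive A)
  let e : Module.End (ZMod r) (Additive A) ≃* Matrix (Fin _) (Fin _) (ZMod r) := (LinearMap.toMatrixAlgEquiv b).toMulEquiv
  let e' : (Module.End (ZMod r) (Additive A))ˣ ≃* GL (Fin _) (ZMod r) := Units.mapEquiv e
  refine ⟨_, e'.toMonoidHom.comp (MonoidHom.toHomUnits ρ), h1, e'.injective.comp ?_⟩
  intro s t h
  have h1 := congrArg Units.val h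
  rw [MonoidHom.coe_toHomUnits, MonoidHom.coe_toHomUnits] at h1
  exact hρ h1

/-- **Cross characteristic bound**: `SL₂(q)` acting faithfully on an elementary abelian `r`-group, `r ≠ p`. -/
theorem card_ge {E : Type w} [Field E] [Fintype E] {p : ℕ} [hp : Fact p.Prime] [CharP E p] {r : ℕ} [hr : Fact r.Prime]
    (hrp : r ≠ p) (hodd : Odd (Fintype.card E)) {A : Type u} [CommGroup A] [Finite A] (hA : ∀ a : A, a ^ r = 1)
    (f : SL2 E →* MulAut A) (hf : Function.Injective f) : r ^ ((Fintype.card E - 1) / 2) ≤ Nat.card A := by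
  obtain ⟨n, g, hc, hg⟩ := exists_gl hA
  have hinj : Function.Injective (g.comp f) := hg.comp hf
  have hpr : ((p : ℕ) : ZMod r) ≠ 0 := by
    rw [Ne, ZMod.natCast_eq_zero_iff]
    intro h
    exact hrp ((Nat.prime_dvd_prime_iff_eq hr.out hp.out).1 h)
  have hB := Cfsg.Agent.H203.BdSL2.bd_of_sl2 (F := ZMod r) (K := E) hp.out rfl hpr (MonoidHom.id (SL2 E)) (by
    intro x hx
    rw [MonoidHom.mem_ker, MonoidHom.id_apply] at hx
    rw [hx]
    exact one_mem _)
  have hgcd : Nat.gcd 2 (Fintype.card E - 1) = 2 := by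
    apply Nat.gcd_eq_left
    obtain ⟨k, hk⟩ := hodd
    exact ⟨k, by omega⟩
  rw [hgcd] at hB
  let e := MonoidHom.ofInjective hinj
  have hn := hB n ⟨↥(g.comp f).range, inferInstance, e.symm.toMonoidHom, (g.comp f).range.subtype,
    e.symm.surjective, fun x hx y => by
      have : x = 1 := by
        apply e.symm.injective
        rw [map_one]
        exact hx
      rw [this, one_mul, mul_one], by
      have : (e.symm.toMonoidHom).ker = ⊥ := (MonoidHom.ker_eq_bot_iff _).2 e.symm.injective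
      rw [this, Subgroup.card_bot]
      exact Nat.coprime_one_left p, by
      rw [Subgroup.ker_subtype]
      exact bot_le⟩
  rw [hc]
  exact Nat.pow_le_pow_right hr.out.pos hn

/-- a Sylow 2-subgroup containing `z`; the only conjugate of `z` in it is `z` -/
theorem isolated {G : Type u} [Group G] [Finite G] {z : G} (hz : orderOf z = 2)
    (h1 : ∀ s : G, s * z = z * s → orderOf s = 2 → s = z) :
    ∃ N : Subgroup G, N.Normal ∧ Odd (Nat.card N) ∧ ∀ g : G, z * g * z⁻¹ * g⁻¹ ∈ N := by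
  have h2 : Fact (Nat.Prime 2) := ⟨Nat.prime_two⟩
  have hzp : IsPGroup 2 (Subgroup.zpowers z) := by
    rw [IsPGroup.iff_card]
    exact ⟨1, by rw [Nat.card_zpowers, hz, pow_one]⟩
  obtain ⟨P, hP⟩ := hzp.exists_le_sylow
  have hzP : z ∈ (P : Subgroup G) := hP (Subgroup.mem_zpowers z)
  have hnt : Nontrivial ↥(P : Subgroup G) := by
    refine ⟨⟨⟨z, hzP⟩, 1, fun h => ?_⟩⟩
    have h3 : z = 1 := congrArg Subtype.val h
    rw [h3, orderOf_one] at hz
    exact absurd hz (by norm_num)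
  have hc : Nontrivial (Subgroup.center ↥(P : Subgroup G)) := P.isPGroup'.center_nontrivial
  -- an involution of the centre
  have hcp : IsPGroup 2 ↥(Subgroup.center ↥(P : Subgroup G)) := P.isPGroup'.to_subgroup _
  have hdvd : 2 ∣ Nat.card ↥(Subgroup.center ↥(P : Subgroup G)) := by
    obtain ⟨n, hn⟩ := IsPGroup.iff_card.1 hcp
    have h4 : 1 < Nat.card ↥(Subgroup.center ↥(P : Subgroup G)) := Finite.one_lt_card
    rcases n with _ | n
    · rw [hn, pow_zero] at h4
      exact absurd h4 (lt_irrefl _)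
    · rw [hn, pow_succ]
      exact Dvd.intro_left _ rfl
  obtain ⟨x, hx⟩ := exists_prime_orderOf_dvd_card' 2 hdvd
  have hxo : orderOf (x : ↥(P : Subgroup G)).1 = 2 := by
    rw [Subgroup.orderOf_coe, Subgroup.orderOf_coe, hx]
  have hcomm : ∀ y ∈ (P : Subgroup G), y * (x : ↥(P : Subgroup G)).1 = (x : ↥(P : Subgroup G)).1 * y := by
    intro y hy
    exact congrArg Subtype.val (Subgroup.mem_center_iff.1 x.2 ⟨y, hy⟩)
  have hxz : (x : ↥(P : Subgroup G)).1 = z := h1 _ (hcomm z hzP).symm hxo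
  rw [hxz] at hcomm
  refine Cfsg.Agent.S0215.result P z hz hzP fun g hg => ?_
  refine h1 _ (hcomm _ hg) ?_
  have h5 : MulAut.conj g z = g * z * g⁻¹ := rfl
  rw [← h5, MulEquiv.orderOf_eq]
  exact hz

/-- a nontrivial normal subgroup of odd order contains a nontrivial normal elementary abelian subgroup -/
theorem exists_elemAb {G : Type u} [Group G] [Finite G] {N : Subgroup G} (hN : N.Normal) (ho : Odd (Nat.card N))
    (hne : N ≠ ⊥) : ∃ (r : ℕ) (R : Subgroup G), r.Prime ∧ r ≠ 2 ∧ R ≤ N ∧ R ≠ ⊥ ∧ R.Normal ∧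
      (∀ x ∈ R, x ^ r = 1) ∧ ∀ x ∈ R, ∀ y ∈ R, x * y = y * x := by
  have hsol : Group.IsSolvable N := Cfsg.Agent.S0205.result ho
  obtain ⟨n0, hn0⟩ := hsol.solvable
  have hex : ∃ n, derivedSeries N n = ⊥ := ⟨n0, hn0⟩
  classical
  have hfind := Nat.find_spec hex
  have hmin : ∀ k < Nat.find hex, derivedSeries N k ≠ ⊥ := fun k hk => Nat.find_min hex hk
  generalize Nat.find hex = n at hfind hmin
  rcases n with _ | k
  · exfalso
    apply hne
    rw [derivedSeries_zero] at hfind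
    rw [← Subgroup.card_eq_one, ← Subgroup.card_top (G := N), hfind, Subgroup.card_bot]
  have hk := hmin k (Nat.lt_succ_self k)
  have hcomm : ∀ x ∈ derivedSeries N k, ∀ y ∈ derivedSeries N k, x * y = y * x := by
    intro x hx y hy
    have h1 : ⁅x, y⁆ ∈ derivedSeries N (k + 1) := Subgroup.commutator_mem_commutator hx hy
    rw [hfind, Subgroup.mem_bot] at h1
    exact commutatorElement_eq_one_iff_mul_comm.1 h1
  have hcard : Nat.card (derivedSeries N k) ≠ 1 := fun h1 => hk (Subgroup.card_eq_one.1 h1)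
  obtain ⟨r, hr, hrd⟩ := Nat.exists_prime_and_dvd hcard
  have hr2 : r ≠ 2 := by
    rintro rfl
    have h1 : 2 ∣ Nat.card N := hrd.trans (Subgroup.card_subgroup_dvd_card _)
    exact (Nat.not_even_iff_odd.2 ho) (even_iff_two_dvd.2 h1)
  let R0 : Subgroup N :=
    { carrier := {x | x ∈ derivedSeries N k ∧ x ^ r = 1}
      one_mem' := ⟨one_mem _, one_pow _⟩
      mul_mem' := by
        rintro x y ⟨hx, hx1⟩ ⟨hy, hy1⟩
        refine ⟨mul_mem hx hy, ?_⟩
        have hc : Commute x y := hcomm x hx y hy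
        rw [hc.mul_pow, hx1, hy1, one_mul]
      inv_mem' := by
        rintro x ⟨hx, hx1⟩
        exact ⟨inv_mem hx, by rw [inv_pow, hx1, inv_one]⟩ }
  have hch : R0.Characteristic := by
    rw [Subgroup.characteristic_iff_map_le]
    rintro e _ ⟨x, ⟨hx, hx1⟩, rfl⟩
    have hD : (derivedSeries N k).Characteristic := inferInstance
    refine ⟨?_, ?_⟩
    · exact (Subgroup.characteristic_iff_map_le.1 hD e) ⟨x, hx, rfl⟩
    · rw [← map_pow, hx1, map_one]
  refine ⟨r, R0.map N.subtype, hr, hr2, Subgroup.map_subtype_le _, ?_, ?_, ?_, ?_⟩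
  · intro h1
    have : Fact r.Prime := ⟨hr⟩
    obtain ⟨x, hx⟩ := exists_prime_orderOf_dvd_card' r hrd
    have h2 : (x : N) ∈ R0 := ⟨x.2, by rw [← hx, ← Subgroup.orderOf_coe, pow_orderOf_eq_one]⟩
    have h3 : ((x : N) : G) ∈ R0.map N.subtype := ⟨_, h2, rfl⟩
    rw [h1, Subgroup.mem_bot] at h3
    have h4 : x = 1 := Subtype.ext (Subtype.ext h3)
    rw [h4, orderOf_one] at hx
    exact hr.one_lt.ne hx
  · exact inferInstance
  · rintro _ ⟨x, ⟨hx, hx1⟩, rfl⟩
    rw [← map_pow, hx1, map_one]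
  · rintro _ ⟨x, ⟨hx, -⟩, rfl⟩ _ ⟨y, ⟨hy, -⟩, rfl⟩
    rw [← map_mul, ← map_mul, hcomm x hx y hy]

/-- the case of the whole group -/
theorem exists_pGroup_aux {G : Type u} [Group G] [Finite G] {z : G} (hz : orderOf z = 2)
    (h1 : ∀ s : G, s * z = z * s → orderOf s = 2 → s = z)
    {E : Type w} [Field E] [Fintype E] {p : ℕ} [hp : Fact p.Prime] [CharP E p] (h2 : (2 : E) ≠ 0)
    (ρ : SL2 E →* G) (hinj : Function.Injective ρ)
    (hn : ∀ g, g * z = z * g → ∀ v, ∃ v', g * ρ v * g⁻¹ = ρ v') (hρz : ∃ w, ρ w = z)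
    (hD : ∀ r : ℕ, r.Prime → r ≠ 2 → r ≠ p → ∀ D : Subgroup G, (∀ d ∈ D, d * z = z * d) → IsPGroup r D →
      (∀ d ∈ D, ∀ v, d * ρ v = ρ v * d) → (∀ a, a * z = z * a → ∀ d ∈ D, a * d * a⁻¹ ∈ D) → D = ⊥)
    (hi : {t : G | orderOf t = 2}.ncard < 3 ^ ((Fintype.card E - 1) / 2)) :
    (∃ R : Subgroup G, R.Normal ∧ R ≠ ⊥ ∧ IsPGroup p R) ∨ ∀ a, a * z = z * a := by
  classical
  have hzz : z * z = 1 := by rw [← pow_two, ← hz, pow_orderOf_eq_one]
  have hz1 : z ≠ 1 := by
    rintro rfl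
    rw [orderOf_one] at hz
    exact absurd hz (by norm_num)
  have hzi : z⁻¹ = z := inv_eq_of_mul_eq_one_right hzz
  -- `z` is the image of `-1`
  obtain ⟨w, hw⟩ := hρz
  have hww : w * w = 1 := hinj (by rw [map_mul, hw, hzz, map_one])
  have hw1 : w ≠ 1 := by
    rintro rfl
    rw [map_one] at hw
    exact hz1 hw.symm
  have hwd : w = Cfsg.Agent.Lib.SL2Mat.dg (-1) (neg_ne_zero.2 one_ne_zero) :=
    (Cfsg.Agent.Cit.HexBase.sl_sq_one h2 hww).resolve_left hw1
  have hwc : ∀ v : SL2 E, w * v = v * w := by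
    intro v
    rw [hwd]
    refine Cfsg.Agent.Lib.SL2Mat.ext_ent ?_ ?_ ?_ ?_ <;> simp [Cfsg.Agent.Lib.SL2Mat.ent_mul]
  have hzρ : ∀ v, z * ρ v = ρ v * z := fun v => by rw [← hw, ← map_mul, ← map_mul, hwc]
  obtain ⟨N, hN, hNo, hNc⟩ := isolated hz h1
  by_cases hNb : N = ⊥
  · right
    intro a
    have h3 := hNc a
    rw [hNb, Subgroup.mem_bot] at h3
    have h4 : z * a * z⁻¹ = a := mul_inv_eq_one.1 h3
    rw [mul_inv_eq_iff_eq_mul] at h4
    exact h4.symm
  obtain ⟨r, R, hr, hr2, hRN, hR1, hRn, hRr, hRc⟩ := exists_elemAb hN hNo hNb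
  by_cases hrp : r = p
  · left
    subst hrp
    exact ⟨R, hRn, hR1, fun x => ⟨1, by
      rw [pow_one]
      exact Subtype.ext (hRr x x.2)⟩⟩
  exfalso
  have hrf : Fact r.Prime := ⟨hr⟩
  have hrodd : Odd r := hr.odd_of_ne_two hr2
  -- `C_R(z) = 1`
  let D : Subgroup G := R ⊓ Subgroup.centralizer {z}
  have hDz : ∀ d ∈ D, d * z = z * d := fun d hd => Subgroup.mem_centralizer_singleton_iff.1 hd.2
  have hDp : IsPGroup r D := fun x => ⟨1, by
    rw [pow_one]
    exact Subtype.ext (hRr x x.2.1)⟩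
  have hDm : ∀ y ∈ R, z * y * z⁻¹ = y → y ∈ D := fun y hy h =>
    ⟨hy, Subgroup.mem_centralizer_singleton_iff.2 (by rw [mul_inv_eq_iff_eq_mul] at h; exact h.symm)⟩
  have hDz' : ∀ d ∈ D, z * d * z⁻¹ = d := fun d hd => by rw [← hDz d hd, mul_inv_cancel_right]
  have hDn : ∀ a, a * z = z * a → ∀ d ∈ D, a * d * a⁻¹ ∈ D := by
    intro a ha d hd
    refine hDm _ (hRn.conj_mem d hd.1 a) ?_
    have h3 := hDz' d hd
    calc z * (a * d * a⁻¹) * z⁻¹ = (z * a) * d * (z * a)⁻¹ := by group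
      _ = a * (z * d * z⁻¹) * a⁻¹ := by rw [← ha]; group
      _ = a * d * a⁻¹ := by rw [h3]
  have hDc : (Nat.card D).Coprime 2 := by
    obtain ⟨k, hk⟩ := IsPGroup.iff_card.1 hDp
    rw [hk]
    exact Nat.Coprime.pow_left k (Nat.coprime_two_right.2 hrodd)
  have hDb : D = ⊥ := by
    refine hD r hr hr2 hrp D hDz hDp (fun d hd v => ?_) hDn
    exact comm_of_odd h2 ρ hinj hDc (fun v n hn' => hDn _ (hzρ v).symm n hn') (fun n hn' => hn n (hDz n hn')) hd v
  -- `z` inverts `R`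
  have hinv : ∀ x ∈ R, z * x * z⁻¹ = x⁻¹ := by
    intro x hx
    have hzx : z * x * z⁻¹ ∈ R := hRn.conj_mem x hx z
    have hy : x * (z * x * z⁻¹) ∈ D := by
      refine hDm _ (mul_mem hx hzx) ?_
      have h3 := hRc x hx _ hzx
      calc z * (x * (z * x * z⁻¹)) * z⁻¹ = (z * x * z⁻¹) * ((z * z) * x * (z * z)⁻¹) := by group
        _ = (z * x * z⁻¹) * x := by rw [hzz, one_mul, inv_one, mul_one]
        _ = _ := h3.symm
    rw [hDb, Subgroup.mem_bot] at hy
    exact (inv_eq_of_mul_eq_one_right hy).symm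
  -- `|R| ≤ i(A)`
  have hcard : Nat.card R ≤ {t : G | orderOf t = 2}.ncard := by
    have h3 : (fun x : G => x * z) '' (R : Set G) ⊆ {t : G | orderOf t = 2} := by
      rintro _ ⟨x, hx, rfl⟩
      change orderOf (x * z) = 2
      refine orderOf_eq_prime ?_ ?_
      · have h4 := hinv x hx
        rw [mul_inv_eq_iff_eq_mul] at h4
        calc (x * z) ^ 2 = x * (z * x) * z := by rw [pow_two]; group
          _ = z * z := by rw [h4]; group
          _ = 1 := hzz
      · intro h4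
        have h5 : z ∈ R := by
          have : z = x⁻¹ := eq_inv_of_mul_eq_one_right h4
          rw [this]
          exact inv_mem hx
        have h6 := hRr z h5
        have h7 : orderOf z ∣ r := orderOf_dvd_of_pow_eq_one h6
        rw [hz] at h7
        exact hr2 ((Nat.prime_dvd_prime_iff_eq Nat.prime_two hr).1 h7).symm
    have h4 := Set.ncard_le_ncard h3 (Set.toFinite _)
    rw [Set.ncard_image_of_injective _ (mul_left_injective z)] at h4
    rwa [← Nat.card_coe_set_eq] at h4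
  -- the action on `R`
  let _ : CommGroup R := { (inferInstance : Group R) with mul_comm := fun a b => Subtype.ext (hRc a a.2 b b.2) }
  let f : SL2 E →* MulAut R := (MulAut.conjNormal (H := R)).comp ρ
  have hfa : ∀ v (x : R), ((f v x : R) : G) = ρ v * x * (ρ v)⁻¹ := fun v x => rfl
  have hf : Function.Injective f := by
    rw [← MonoidHom.ker_eq_bot_iff]
    refine sl_odd h2 _ inferInstance ?_
    rw [Nat.coprime_two_right, ← Nat.not_even_iff_odd]
    intro he
    have h2f : Fact (Nat.Prime 2) := ⟨Nat.prime_two⟩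
    obtain ⟨x, hx⟩ := exists_prime_orderOf_dvd_card' 2 (even_iff_two_dvd.1 he)
    have hx2 : (x : SL2 E) * x = 1 := by
      have h3 : x ^ 2 = 1 := orderOf_dvd_iff_pow_eq_one.1 (by rw [hx])
      rw [pow_two] at h3
      exact congrArg Subtype.val h3
    have hxw : (x : SL2 E) = w := by
      rw [hwd]
      refine (Cfsg.Agent.Cit.HexBase.sl_sq_one h2 hx2).resolve_left fun h => ?_
      have h3 : x = 1 := Subtype.ext h
      rw [h3, orderOf_one] at hx
      exact absurd hx (by norm_num)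
    apply hR1
    rw [eq_bot_iff]
    intro y hy
    have h3 : f (x : SL2 E) = 1 := x.2
    have h4 := hfa (x : SL2 E) ⟨y, hy⟩
    rw [h3, MulAut.one_apply, hxw, hw] at h4
    have h5 : y = y⁻¹ := h4.trans (hinv y hy)
    have h6 : y * y = 1 := by nth_rewrite 1 [h5]; exact inv_mul_cancel y
    rw [Subgroup.mem_bot]
    have h7 : orderOf y ∣ 2 := orderOf_dvd_of_pow_eq_one (by rw [pow_two, h6])
    have h8 : orderOf y ∣ r := orderOf_dvd_of_pow_eq_one (hRr y hy)
    have h9 : Nat.Coprime 2 r := (Nat.coprime_primes Nat.prime_two hr).2 (Ne.symm hr2)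
    have h10 := Nat.dvd_gcd h7 h8
    rw [h9.gcd_eq_one, Nat.dvd_one, orderOf_eq_one_iff] at h10
    exact h10
  have hge := card_ge (p := p) (r := r) hrp (odd_of_two h2) (A := R) (fun a => Subtype.ext (hRr a a.2)) f hf
  have h3r : 3 ≤ r := by
    have := hr.two_le
    omega
  have hle : 3 ^ ((Fintype.card E - 1) / 2) ≤ r ^ ((Fintype.card E - 1) / 2) := Nat.pow_le_pow_left h3r _
  omega

/-- **2-rank one: `z` is central in `A` or `A` has a normal `p`-subgroup `≠ 1`.** -/
theorem exists_pGroup {T : Type u} [Group T] [Finite T] {A : Subgroup T} {z : T} (hzA : z ∈ A) (hz : orderOf z = 2)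
    (h1 : ∀ s ∈ A, s * z = z * s → orderOf s = 2 → s = z)
    {E : Type w} [Field E] [Fintype E] {p : ℕ} [hp : Fact p.Prime] [CharP E p] (h2 : (2 : E) ≠ 0)
    (ρ : SL2 E →* T) (hinj : Function.Injective ρ) (hρA : ∀ v, ρ v ∈ A)
    (hn : ∀ g, g * z = z * g → ∀ v, ∃ v', g * ρ v * g⁻¹ = ρ v') (hρz : ∃ w, ρ w = z)
    (hD : ∀ r : ℕ, r.Prime → r ≠ 2 → r ≠ p → ∀ D : Subgroup T, D ≤ A → (∀ d ∈ D, d * z = z * d) → IsPGroup r D →
      (∀ d ∈ D, ∀ v, d * ρ v = ρ v * d) → (∀ a ∈ A, a * z = z * a → ∀ d ∈ D, a * d * a⁻¹ ∈ D) → D = ⊥)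
    (hi : {t : T | t ∈ A ∧ orderOf t = 2}.ncard < 3 ^ ((Fintype.card E - 1) / 2)) :
    (∃ R : Subgroup T, R ≤ A ∧ R ≠ ⊥ ∧ IsPGroup p R ∧ ∀ a ∈ A, ∀ x ∈ R, a * x * a⁻¹ ∈ R) ∨
      ∀ a ∈ A, a * z = z * a := by
  have key := exists_pGroup_aux (G := ↥A) (z := ⟨z, hzA⟩) (by rw [Subgroup.orderOf_mk]; exact hz)
    (fun s hs ho => Subtype.ext (h1 s s.2 (congrArg Subtype.val hs) (by rw [Subgroup.orderOf_coe]; exact ho)))
    (p := p) h2 (ρ.codRestrict A hρA) (fun x y h => hinj (congrArg Subtype.val h)) ?_ ?_ ?_ ?_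
  · rcases key with ⟨R, hRn, hR1, hRp⟩ | h
    · left
      refine ⟨R.map A.subtype, Subgroup.map_subtype_le _, ?_, hRp.map _, ?_⟩
      · intro h
        exact hR1 ((Subgroup.map_eq_bot_iff_of_injective _ A.subtype_injective).1 h)
      · rintro a ha _ ⟨x, hx, rfl⟩
        exact ⟨⟨a, ha⟩ * x * ⟨a, ha⟩⁻¹, hRn.conj_mem x hx _, rfl⟩
    · right
      intro a ha
      exact congrArg Subtype.val (h ⟨a, ha⟩)
  · intro g hg v
    obtain ⟨v', hv'⟩ := hn g (congrArg Subtype.val hg) v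
    exact ⟨v', Subtype.ext hv'⟩
  · obtain ⟨w, hw⟩ := hρz
    exact ⟨w, Subtype.ext hw⟩
  · intro r hr hr2 hrp D hDz hDp hDρ hDn
    have h3 := hD r hr hr2 hrp (D.map A.subtype) (Subgroup.map_subtype_le _)
      (by
        rintro _ ⟨d, hd, rfl⟩
        exact congrArg Subtype.val (hDz d hd)) (hDp.map _)
      (by
        rintro _ ⟨d, hd, rfl⟩ v
        exact congrArg Subtype.val (hDρ d hd v))
      (by
        rintro a ha haz _ ⟨d, hd, rfl⟩
        exact ⟨⟨a, ha⟩ * d * ⟨a, ha⟩⁻¹, hDn ⟨a, ha⟩ (Subtype.ext haz) d hd, rfl⟩)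
    exact (Subgroup.map_eq_bot_iff_of_injective _ A.subtype_injective).1 h3
  · refine lt_of_le_of_lt ?_ hi
    rw [← Set.ncard_image_of_injective _ A.subtype_injective]
    refine Set.ncard_le_ncard ?_ (Set.toFinite _)
    rintro _ ⟨t, ht, rfl⟩
    exact ⟨t.2, by rw [Subgroup.coe_subtype, Subgroup.orderOf_coe]; exact ht⟩

end Cfsg.Agent.H917.IFG
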