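import Cfsg.Agent.Cit.HexCore

/-!
# Generation of `G₂(q)`, `³D₄(q)`, `q` odd (S5719, cells `g2`, `td4`)

Frame `HexGrp σ L` (project CIT), `L0 = K 1 ⊔ K 4`.

* `mul_mem_L0` : `|C(z) : K 1 K 4| ≤ 2`;
* `gen_V` : `K 1 K 4 (z_k) ≤ A` for the three involutions `z_k` of the torus implies `A = ⊤`;
* `gen_all` : `g (K 1 K 4) g⁻¹ ≤ A` for every involution `g z g⁻¹` of `A` implies `A = ⊤`;
* `gen9` : three of the four root groups over every involution of the torus implies `A = ⊤`.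
-/

set_option autoImplicit false

namespace Cfsg.Agent.Cit.HexBase

open Cfsg.Agent.SplitTwo Cfsg.Agent.TitsThree.RankTwoZ Cfsg.Agent.Lib.SL2Mat
  Cfsg.Agent.TitsThree.RankTwoIdx Cfsg.Agent.TitsThree.RankTwoRGD
open scoped commutatorElement Pointwise

namespace HexGrp

universe u

variable {E : Type*} [Field E] {σ : E ≃+* E} {L : Type u} [Group L] (c : HexGrp σ L)

/-- `K 1 K 4` -/
def L0 : Subgroup L := c.K1 ⊔ c.K4

theorem K1_le_L0 : c.K1 ≤ c.L0 := le_sup_left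
theorem K4_le_L0 : c.K4 ≤ c.L0 := le_sup_right

theorem L0_le_CZ : c.L0 ≤ c.CZ := sup_le c.K1_le_CZ c.K4_le_CZ

/-- `C(z)` normalises `K 1 K 4` -/
theorem conj_L0 [Finite E] (h2 : (2 : E) ≠ 0) {g x : L} (hg : g * c.z = c.z * g) (hx : x ∈ c.L0) :
    g * x * g⁻¹ ∈ c.L0 := by
  have hle : c.L0 ≤ c.L0.comap (MulAut.conj g).toMonoidHom := by
    refine sup_le ?_ ?_
    · rintro _ ⟨v, rfl⟩
      obtain ⟨v', hv'⟩ := c.CZ_pb h2 hg v
      change g * c.pb v * g⁻¹ ∈ c.L0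
      rw [hv']
      exact c.K1_le_L0 ⟨v', rfl⟩
    · rintro _ ⟨v, rfl⟩
      obtain ⟨v', hv'⟩ := c.CZ_p4 h2 hg v
      change g * c.p4 v * g⁻¹ ∈ c.L0
      rw [hv']
      exact c.K4_le_L0 ⟨v', rfl⟩
  exact hle hx

theorem conj_L0_iff [Finite E] (h2 : (2 : E) ≠ 0) {g x : L} (hg : g * c.z = c.z * g) :
    g * x * g⁻¹ ∈ c.L0 ↔ x ∈ c.L0 := by
  refine ⟨fun h => ?_, c.conj_L0 h2 hg⟩
  have hg' : g⁻¹ * c.z = c.z * g⁻¹ := by
    rw [inv_mul_eq_iff_eq_mul, ← mul_assoc, hg]; group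
  have h1 := c.conj_L0 h2 hg' h
  have e : g⁻¹ * (g * x * g⁻¹) * g⁻¹⁻¹ = x := by group
  rwa [e] at h1

theorem pa_dg_mem_L0 {t : ↥(fx σ)} (ht : t ≠ 0) (h : IsSquare t) : c.pa (dg t ht) ∈ c.L0 := by
  obtain ⟨a, rfl⟩ := h
  have ha : a ≠ 0 := fun h => ht (by rw [h, zero_mul])
  have e : dg (a * a) ht = dg (a ^ 2) (pow_ne_zero 2 ha) := by
    refine ext_ent ?_ ?_ ?_ ?_ <;> simp [pow_two]
  rw [e, c.pa_dg_sq a ha]
  exact mul_mem (inv_mem (c.K1_le_L0 ⟨_, rfl⟩)) (c.K4_le_L0 ⟨_, rfl⟩)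

/-- **`|C(z) : K 1 K 4| ≤ 2`.** -/
theorem mul_mem_L0 [Finite E] (h2 : (2 : E) ≠ 0) {g h : L} (hg : g * c.z = c.z * g) (hh : h * c.z = c.z * h)
    (hg0 : g ∉ c.L0) (hh0 : h ∉ c.L0) : g * h ∈ c.L0 := by
  obtain ⟨x, y, t, ht, eg⟩ := c.mem_CZ_form h2 hg
  obtain ⟨x', y', t', ht', eh⟩ := c.mem_CZ_form h2 hh
  have key : ∀ (g : L) (x : SL2 E) (y : SL2 ↥(fx σ)) (t : ↥(fx σ)) (ht : t ≠ 0),
      g = c.pb x * c.p4 y * c.pa (dg t ht) → g ∉ c.L0 → ¬ IsSquare t := by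
    intro g x y t ht e hg hs
    apply hg
    rw [e]
    exact mul_mem (mul_mem (c.K1_le_L0 ⟨_, rfl⟩) (c.K4_le_L0 ⟨_, rfl⟩)) (c.pa_dg_mem_L0 ht hs)
  have k1 := key g x y t ht eg hg0
  have k2 := key h x' y' t' ht' eh hh0
  have hs : IsSquare (t * t') := by
    classical
    have := Fintype.ofFinite ↥(fx σ)
    have hr : ringChar ↥(fx σ) ≠ 2 := by
      intro h
      apply h2
      have h3 := (ringChar.spec ↥(fx σ) 2).2 (by rw [h])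
      have h4 : ((2 : ℕ) : ↥(fx σ)) = 0 := h3
      exact congrArg Subtype.val (show (2 : ↥(fx σ)) = 0 by exact_mod_cast h4)
    have q1 := (quadraticChar_neg_one_iff_not_isSquare (F := ↥(fx σ))).2 k1
    have q2 := (quadraticChar_neg_one_iff_not_isSquare (F := ↥(fx σ))).2 k2
    rw [← quadraticChar_one_iff_isSquare (mul_ne_zero ht ht'), map_mul, q1, q2]
    norm_num
  have hT : c.pa (dg t ht) ∈ c.T0 := ⟨_, _, c.act_a t ht⟩
  have hTz : c.pa (dg t ht) * c.z = c.z * c.pa (dg t ht) := c.T0_comm hT c.z_mem_T0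
  have e : g * h = c.pb x * c.p4 y * (c.pa (dg t ht) * (c.pb x' * c.p4 y') * (c.pa (dg t ht))⁻¹) *
      c.pa (dg (t * t') (mul_ne_zero ht ht')) := by
    rw [eg, eh, ← dg_mul_dg t t' ht ht', map_mul]
    group
  rw [e]
  exact mul_mem (mul_mem (mul_mem (c.K1_le_L0 ⟨_, rfl⟩) (c.K4_le_L0 ⟨_, rfl⟩))
    (c.conj_L0 h2 hTz (mul_mem (c.K1_le_L0 ⟨_, rfl⟩) (c.K4_le_L0 ⟨_, rfl⟩)))) (c.pa_dg_mem_L0 _ hs)

/-! ### The involution `v = (n1 n6)³` -/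

omit c in
theorem wm_sq {K : Type*} [Field K] : wm (1 : K) one_ne_zero * wm 1 one_ne_zero =
    dg (-1) (neg_ne_zero.2 one_ne_zero) := by
  refine ext_ent ?_ ?_ ?_ ?_ <;> simp [ent_mul]

theorem n1_mul_n1 : c.n1 * c.n1 = c.z := by rw [n1, z, ← map_mul, wm_sq]
theorem n4_mul_n4 : c.n4 * c.n4 = c.z := by rw [n4, z_eq_p4, ← map_mul, wm_sq]
theorem n6_mul_n6 : c.n6 * c.n6 = c.z0 := by rw [n6, z0, ← map_mul, wm_sq]

/-- the third involution of the torus -/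
def z3 : L := c.z0 * c.z

theorem act_z3 : c.Act c.z3 (-1) (-1) := by
  refine (c.act_z0.mul c.act_z).congr rfl ?_ ?_
  · rw [mul_one]
  · rw [one_mul]

theorem z0_mem_T0 : c.z0 ∈ c.T0 := ⟨_, _, c.act_z0⟩

/-- conjugation by `n6 n1` -/
theorem conj_z : c.n6 * c.n1 * c.z * (c.n6 * c.n1)⁻¹ = c.z3 := by
  refine (c.act_z.rot').unique (c.act_z3.congr rfl ?_ ?_)
  · rw [nrm_one, inv_one, mul_one, mul_one]
  · rw [nrm_one, mul_one, inv_neg, inv_one]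

theorem conj_z0 : c.n6 * c.n1 * c.z0 * (c.n6 * c.n1)⁻¹ = c.z := by
  refine (c.act_z0.rot').unique (c.act_z.congr rfl ?_ ?_)
  · rw [nrm_neg, nrm_one, inv_neg, inv_one, one_mul, neg_mul_neg, one_mul]
  · rw [nrm_neg, nrm_one, one_mul, inv_neg, inv_one]

theorem conj_z3 : c.n6 * c.n1 * c.z3 * (c.n6 * c.n1)⁻¹ = c.z0 := by
  refine (c.act_z3.rot').unique (c.act_z0.congr rfl ?_ ?_)
  · rw [nrm_neg, nrm_one, inv_neg, inv_one]; ring
  · rw [nrm_neg, nrm_one]; norm_num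

/-- `v = (n6 n1)³` -/
def v : L := c.n6 * c.n1 * (c.n6 * c.n1) * (c.n6 * c.n1)

theorem v_comm : c.n6 * c.n1 * c.v = c.v * (c.n6 * c.n1) := by
  rw [v]; group

theorem n14 : c.n1 * c.n4 = c.n4 * c.n1 := c.comm_pb_p4 _ _
theorem n1z : c.n1 * c.z = c.z * c.n1 := (c.z_pb _).symm
theorem n4z : c.n4 * c.z = c.z * c.n4 := (c.z_p4 _).symm

/-- `v = n4 n1 z` up to the order -/
theorem v_eq : c.v = c.n4 * c.z * c.n1 := by
  have h1 : c.v = c.n4 * (c.n6 * (c.n1 * c.n1) * c.n6⁻¹) * (c.n6 * c.n6) * c.n1 := by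
    rw [n4_eq, v]; group
  have h3 : c.n6 * (c.n1 * c.n1) * c.n6⁻¹ * (c.n6 * c.n6) = c.z := by
    rw [n1_mul_n1, n6_mul_n6]
    have h4 := c.act_z.n6.mul c.act_z0
    refine h4.unique (c.act_z.congr rfl ?_ ?_)
    · ring
    · rw [inv_neg, inv_one, mul_one]
  rw [h1, mul_assoc c.n4, h3]

theorem v_mem_L0 : c.v ∈ c.L0 := by
  rw [v_eq]
  exact mul_mem (mul_mem (c.K4_le_L0 c.n4_mem_K4) (c.K4_le_L0 c.z_mem_K4)) (c.K1_le_L0 c.n1_mem_K1)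

theorem v_sq : c.v * c.v = 1 := by
  rw [v_eq]
  calc c.n4 * c.z * c.n1 * (c.n4 * c.z * c.n1) = c.n4 * c.z * (c.n1 * c.n4) * c.z * c.n1 := by group
    _ = c.n4 * (c.z * c.n4) * (c.n1 * c.z) * c.n1 := by rw [n14]; group
    _ = (c.n4 * c.n4) * c.z * c.z * (c.n1 * c.n1) := by rw [n1z, ← n4z]; group
    _ = 1 := by rw [n4_mul_n4, n1_mul_n1, c.z_sq, one_mul, c.z_sq]

theorem v_maps : Maps c.X c.v (fun k => k + 6) := by
  have h : Maps c.X (c.n6 * c.n1) (fun k => k - 2) := c.maps_g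
  refine ((h.mul h).mul h).congr fun k => ?_
  simp only [Function.comp]
  have : (12 : ZMod (2 * 6)) = 0 := by decide
  linear_combination (-1 : ZMod (2 * 6)) * this

theorem x1one_ne : c.x1 1 ≠ 1 := fun h => one_ne_zero (c.x1_inj (by rw [h, c.x1_zero]))

theorem v_ne : c.v ≠ 1 := by
  intro h
  have h1 : c.v * c.x1 1 * c.v⁻¹ ∈ c.X 7 := maps_mem c.v_maps (c.mem1 1) (by decide)
  rw [h, one_mul, inv_one, mul_one] at h1
  exact c.x1one_ne (c.eq_one_of_ne (by decide) (c.mem1 1) h1)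

/-- the root groups over the conjugates of `z` by the powers of `n6 n1` -/
theorem X_le_of_conj {A : Subgroup L} {n : L} {f : ZMod (2 * 6) → ZMod (2 * 6)} (hn : Maps c.X n f)
    (h : ∀ x ∈ c.L0, n * x * n⁻¹ ∈ A) : ∀ k ∈ ({1, 4, 7, 10} : Finset (ZMod (2 * 6))), c.X (f k) ≤ A := by
  intro k hk x hx
  have hk0 : c.X k ≤ c.L0 := by
    fin_cases hk
    · exact c.X1_le_K1.trans c.K1_le_L0
    · exact c.X4_le_K4.trans c.K4_le_L0
    · exact c.X7_le_K1.trans c.K1_le_L0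
    · exact c.X10_le_K4.trans c.K4_le_L0
  have h1 := h _ (hk0 (maps_mem' hn hx rfl))
  have e : n * (n⁻¹ * x * n) * n⁻¹ = x := by group
  rwa [e] at h1

omit c in
theorem idx3 : ∀ k : ZMod (2 * 6), (∃ j ∈ ({1, 4, 7, 10} : Finset (ZMod (2 * 6))), k = j) ∨
    (∃ j ∈ ({1, 4, 7, 10} : Finset (ZMod (2 * 6))), k = j - 2) ∨
    (∃ j ∈ ({1, 4, 7, 10} : Finset (ZMod (2 * 6))), k = j - 2 - 2) := by decide +kernel

/-- **`K 1 K 4 (z_k) ≤ A` for the three involutions `z_k` of the torus implies `A = ⊤`.** -/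
theorem gen_V {A : Subgroup L} (h1 : c.L0 ≤ A) (h2 : ∀ x ∈ c.L0, c.n6 * c.n1 * x * (c.n6 * c.n1)⁻¹ ∈ A)
    (h3 : ∀ x ∈ c.L0, c.n6 * c.n1 * (c.n6 * c.n1) * x * (c.n6 * c.n1 * (c.n6 * c.n1))⁻¹ ∈ A) : A = ⊤ := by
  rw [eq_top_iff, ← c.gen]
  refine iSup_le fun k => ?_
  have hg : Maps c.X (c.n6 * c.n1) (fun k => k - 2) := c.maps_g
  rcases idx3 k with ⟨j, hj, rfl⟩ | ⟨j, hj, rfl⟩ | ⟨j, hj, rfl⟩
  · exact c.X_le_of_conj (f := id) (Maps.one (X := c.X)) (fun x hx => by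
      rw [one_mul, inv_one, mul_one]; exact h1 hx) k hj
  · exact c.X_le_of_conj hg h2 j hj
  · exact c.X_le_of_conj (hg.mul hg) h3 j hj

/-- the three involutions of the torus lie in `K 1 K 4` of the involution `v` -/
theorem V_le_of_conj [Finite E] (h2 : (2 : E) ≠ 0) {g : L} (hg : g * c.z * g⁻¹ = c.v) :
    g⁻¹ * c.z * g ∈ c.L0 ∧ g⁻¹ * c.z0 * g ∈ c.L0 ∧ g⁻¹ * c.z3 * g ∈ c.L0 := by
  -- `n = n6 n1` centralises `v`
  obtain ⟨m, hm⟩ : ∃ m, m = g⁻¹ * (c.n6 * c.n1) * g := ⟨_, rfl⟩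
  have hmz : m * c.z = c.z * m := by
    have e1 : c.z = g⁻¹ * c.v * g := by rw [← hg]; group
    rw [e1, hm]
    calc g⁻¹ * (c.n6 * c.n1) * g * (g⁻¹ * c.v * g) = g⁻¹ * (c.n6 * c.n1 * c.v) * g := by group
      _ = g⁻¹ * (c.v * (c.n6 * c.n1)) * g := by rw [c.v_comm]
      _ = _ := by group
  have hT : ∀ t ∈ ({c.z, c.z0, c.z3} : Set L), (g⁻¹ * t * g) * c.z = c.z * (g⁻¹ * t * g) := by
    intro t ht
    have hvt : c.v * t = t * c.v := by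
      have hn : ∀ t, t * t = 1 → t ∈ c.T0 → c.v * t = t * c.v := by
        intro t ht hT
        -- `v = n4 z n1`
        obtain ⟨c1, c6, hA⟩ := hT
        have e : c.v * t * c.v⁻¹ = t⁻¹ := by
          have h3 := hA.rot'.rot'.rot'
          have h5 := hA.alt2
          refine (h5.congr ?_ rfl rfl).unique hA.inv
          rw [v]
          simp only [alt]
          group
        rw [inv_eq_of_mul_eq_one_right ht] at e
        exact mul_inv_eq_iff_eq_mul.1 e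
      rcases ht with rfl | rfl | rfl
      · exact hn _ c.z_sq c.z_mem_T0
      · exact hn _ c.z0_sq c.z0_mem_T0
      · refine hn _ ?_ ⟨_, _, c.act_z3⟩
        have h := c.act_z3.mul c.act_z3
        rw [neg_mul_neg, one_mul] at h
        exact h.eq_one
    have e1 : c.z = g⁻¹ * c.v * g := by rw [← hg]; group
    rw [e1]
    calc g⁻¹ * t * g * (g⁻¹ * c.v * g) = g⁻¹ * (t * c.v) * g := by group
      _ = g⁻¹ * (c.v * t) * g := by rw [hvt]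
      _ = _ := by group
  have hz := hT c.z (by simp)
  have hz0 := hT c.z0 (by simp)
  have hz3 := hT c.z3 (by simp)
  -- `m` permutes the three involutions
  have m1 : m * (g⁻¹ * c.z * g) * m⁻¹ = g⁻¹ * c.z3 * g := by rw [hm, ← c.conj_z]; group
  have m2 : m * (g⁻¹ * c.z0 * g) * m⁻¹ = g⁻¹ * c.z * g := by
    have := c.conj_z0
    calc m * (g⁻¹ * c.z0 * g) * m⁻¹ = g⁻¹ * (c.n6 * c.n1 * c.z0 * (c.n6 * c.n1)⁻¹) * g := by rw [hm]; group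
      _ = _ := by rw [this]
  have i1 : g⁻¹ * c.z3 * g ∈ c.L0 ↔ g⁻¹ * c.z * g ∈ c.L0 := by rw [← m1]; exact c.conj_L0_iff h2 hmz
  have i2 : g⁻¹ * c.z * g ∈ c.L0 ↔ g⁻¹ * c.z0 * g ∈ c.L0 := by rw [← m2]; exact c.conj_L0_iff h2 hmz
  have e3 : g⁻¹ * c.z3 * g = (g⁻¹ * c.z0 * g) * (g⁻¹ * c.z * g) := by rw [z3]; group
  have key : g⁻¹ * c.z * g ∈ c.L0 := by
    by_contra hn
    have hn0 : g⁻¹ * c.z0 * g ∉ c.L0 := fun h => hn (i2.2 h)
    have h3 := c.mul_mem_L0 h2 hz0 hz hn0 hn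
    rw [← e3] at h3
    exact hn (i1.1 h3)
  exact ⟨key, i2.1 key, i1.2 key⟩

/-- **`g (K 1 K 4) g⁻¹ ≤ A` for every involution `g z g⁻¹` of `A` implies `A = ⊤`.** -/
theorem gen_all [Finite E] [Finite L] (h2 : (2 : E) ≠ 0) {A : Subgroup L} (hA : ∃ t ∈ A, t * t = 1 ∧ t ≠ 1)
    (h : ∀ g, g * c.z * g⁻¹ ∈ A → ∀ x ∈ c.L0, g * x * g⁻¹ ∈ A) : A = ⊤ := by
  -- first the case `z ∈ A`
  have key : ∀ A : Subgroup L, c.z ∈ A → (∀ g, g * c.z * g⁻¹ ∈ A → ∀ x ∈ c.L0, g * x * g⁻¹ ∈ A) → A = ⊤ := by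
    intro A hz h
    have hL : c.L0 ≤ A := fun x hx => by
      have := h 1 (by rw [one_mul, inv_one, mul_one]; exact hz) x hx
      rwa [one_mul, inv_one, mul_one] at this
    obtain ⟨g, hg⟩ := isConj_iff.1 (c.isConj_invol h2 c.z_sq (c.z_ne h2) c.v_sq c.v_ne)
    have hvA : ∀ x ∈ c.L0, g * x * g⁻¹ ∈ A := h g (by rw [hg]; exact hL c.v_mem_L0)
    obtain ⟨-, k0, k3⟩ := c.V_le_of_conj h2 hg
    have m0 : c.z0 ∈ A := by
      have := hvA _ k0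
      have e : g * (g⁻¹ * c.z0 * g) * g⁻¹ = c.z0 := by group
      rwa [e] at this
    have m3 : c.z3 ∈ A := by
      have := hvA _ k3
      have e : g * (g⁻¹ * c.z3 * g) * g⁻¹ = c.z3 := by group
      rwa [e] at this
    refine c.gen_V hL (h _ (by rw [c.conj_z]; exact m3)) (h _ ?_)
    have e : c.n6 * c.n1 * (c.n6 * c.n1) * c.z * (c.n6 * c.n1 * (c.n6 * c.n1))⁻¹ =
        c.n6 * c.n1 * (c.n6 * c.n1 * c.z * (c.n6 * c.n1)⁻¹) * (c.n6 * c.n1)⁻¹ := by group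
    rw [e, c.conj_z, c.conj_z3]
    exact m0
  obtain ⟨t, htA, ht, ht1⟩ := hA
  obtain ⟨w, hw⟩ := isConj_iff.1 (c.isConj_z h2 ht ht1)
  have h1 := key (A.map (MulAut.conj w).toMonoidHom) ⟨t, htA, hw⟩ (fun g hg x hx => by
    obtain ⟨a, ha, e⟩ := hg
    have e' : w * a * w⁻¹ = g * c.z * g⁻¹ := e
    refine ⟨(w⁻¹ * g) * x * (w⁻¹ * g)⁻¹, h (w⁻¹ * g) ?_ x hx, ?_⟩
    · have : w⁻¹ * g * c.z * (w⁻¹ * g)⁻¹ = a := by
        calc w⁻¹ * g * c.z * (w⁻¹ * g)⁻¹ = w⁻¹ * (g * c.z * g⁻¹) * w := by group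
          _ = a := by rw [← e']; group
      rw [this]
      exact ha
    · change w * (w⁻¹ * g * x * (w⁻¹ * g)⁻¹) * w⁻¹ = g * x * g⁻¹
      group)
  rw [eq_top_iff]
  intro x _
  have hx : w * x * w⁻¹ ∈ A.map (MulAut.conj w).toMonoidHom := by rw [h1]; exact Subgroup.mem_top _
  obtain ⟨a, ha, e⟩ := hx
  have e' : w * a * w⁻¹ = w * x * w⁻¹ := e
  have : a = x := mul_left_cancel (mul_right_cancel e')
  rwa [← this]

end HexGrp

end Cfsg.Agent.Cit.HexBase
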