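import Mathlib

/-!
# S5719: `A5` inside `PSL(2, 9)` (P3 of StepC)
-/

set_option autoImplicit false

namespace Cfsg.Agent.H917.IFG

open Subgroup

theorem three_cycle (c : Equiv.Perm (Fin 5)) (hc : c ^ 3 = 1) (hc1 : c ≠ 1) : c.IsThreeCycle := by
  have ho : orderOf c = 3 := orderOf_eq_prime hc hc1
  obtain ⟨n, hn⟩ := Equiv.Perm.cycleType_prime_order (σ := c) (by rw [ho]; exact Nat.prime_three)
  rw [ho] at hn
  have h1 : c.cycleType.sum ≤ 5 := by
    rw [Equiv.Perm.sum_cycleType]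
    exact (Finset.card_le_univ _).trans (by simp)
  rw [hn, Multiset.sum_replicate, smul_eq_mul] at h1
  have h0 : n = 0 := by omega
  rw [h0] at hn
  exact hn

/-- the elements of order three of `A5` are conjugate -/
theorem alt5_conj (a b : alternatingGroup (Fin 5)) (ha : a ^ 3 = 1) (ha1 : a ≠ 1) (hb : b ^ 3 = 1) (hb1 : b ≠ 1) :
    ∃ w : alternatingGroup (Fin 5), w * a * w⁻¹ = b := by
  have h3 : ∀ c : alternatingGroup (Fin 5), c ^ 3 = 1 → c ≠ 1 → (c : Equiv.Perm (Fin 5)).IsThreeCycle := by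
    intro c hc hc1
    refine three_cycle _ ?_ ?_
    · rw [← Subgroup.coe_pow, hc, Subgroup.coe_one]
    · intro h
      exact hc1 (Subtype.ext h)
  have hab : IsConj a b := alternatingGroup.isThreeCycle_isConj (by simp) (h3 a ha ha1) (h3 b hb hb1)
  obtain ⟨w, hw⟩ := isConj_iff.1 hab
  exact ⟨w, hw⟩

theorem center_sq {F : Type*} [Field F] {z : Matrix.SpecialLinearGroup (Fin 2) F}
    (hz : z ∈ center (Matrix.SpecialLinearGroup (Fin 2) F)) : z ^ 2 = 1 := by
  rw [Matrix.SpecialLinearGroup.mem_center_iff] at hz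
  obtain ⟨r, hr, h⟩ := hz
  rw [Fintype.card_fin] at hr
  apply Subtype.ext
  rw [Matrix.SpecialLinearGroup.coe_pow, ← h, ← map_pow, hr, map_one, Matrix.SpecialLinearGroup.coe_one]

theorem nine {F : Type*} [Field F] [Fintype F] (hF : Fintype.card F = 9) {C : Type*} [Group C] [Finite C]
    (ρ : Matrix.SpecialLinearGroup (Fin 2) F →* C) (hρ : Function.Injective ρ) (A M : Subgroup C) (hM : ρ.range ≤ M)
    (hn : ∀ g x, ∃ x', g * ρ x * g⁻¹ = ρ x') (hc : ∀ u, u ≠ 1 → u ^ 3 = 1 → ∀ g, g * ρ u = ρ u * g → g ∈ M)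
    (hZ : Subgroup.center (Matrix.SpecialLinearGroup (Fin 2) F) ≤ A.comap ρ)
    (h5 : Nonempty ((A.comap ρ).map (QuotientGroup.mk' (Subgroup.center (Matrix.SpecialLinearGroup (Fin 2) F))) ≃*
      alternatingGroup (Fin 5))) : A ≤ M := by
  obtain ⟨e⟩ := h5
  set Z := Subgroup.center (Matrix.SpecialLinearGroup (Fin 2) F) with hZd
  set π := QuotientGroup.mk' Z with hπ
  have hker : ∀ x : Matrix.SpecialLinearGroup (Fin 2) F, π x = 1 ↔ x ∈ Z := fun x => by
    rw [hπ, QuotientGroup.mk'_apply, QuotientGroup.eq_one_iff]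
  -- an element of order three of Y
  obtain ⟨t, ht3, ht1⟩ : ∃ t : alternatingGroup (Fin 5), t ^ 3 = 1 ∧ t ≠ 1 := by
    have hm : Equiv.swap (0 : Fin 5) 1 * Equiv.swap 1 2 ∈ alternatingGroup (Fin 5) := by
      rw [Equiv.Perm.mem_alternatingGroup]
      decide
    refine ⟨⟨_, hm⟩, ?_, ?_⟩
    · apply Subtype.ext
      rw [Subgroup.coe_pow, Subgroup.coe_one]
      change (Equiv.swap (0 : Fin 5) 1 * Equiv.swap 1 2) ^ 3 = 1
      decide
    · intro h
      have h2 : Equiv.swap (0 : Fin 5) 1 * Equiv.swap 1 2 = 1 := congrArg Subtype.val h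
      have h3 : Equiv.swap (0 : Fin 5) 1 * Equiv.swap 1 2 ≠ 1 := by decide
      exact h3 h2
  obtain ⟨y, hyY, hy⟩ := Subgroup.mem_map.1 (e.symm t).2
  have hyt : e ⟨π y, Subgroup.mem_map_of_mem π hyY⟩ = t := by
    rw [← e.apply_symm_apply t]
    congr 1
    exact Subtype.ext hy
  have hy3 : y ^ 3 ∈ Z := by
    rw [← hker, map_pow, hy, ← Subgroup.coe_pow, ← map_pow, ht3, map_one, Subgroup.coe_one]
  have hyn : π y ≠ 1 := by
    intro h
    apply ht1
    rw [← hyt]
    have : (⟨π y, Subgroup.mem_map_of_mem π hyY⟩ : (A.comap ρ).map π) = 1 := Subtype.ext h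
    rw [this, map_one]
  intro g hg
  have hu3 : (y ^ 4) ^ 3 = 1 := by
    rw [← pow_mul, show 4 * 3 = 3 * 2 * 2 from rfl, pow_mul, pow_mul, center_sq hy3, one_pow]
  have hπu : π (y ^ 4) = π y := by
    have := (hker _).2 hy3
    rw [map_pow] at this ⊢
    rw [pow_succ, this, one_mul]
  have hu1 : y ^ 4 ≠ 1 := by
    intro h
    rw [h, map_one] at hπu
    exact hyn hπu.symm
  set u := y ^ 4 with hu
  have huY : u ∈ A.comap ρ := pow_mem hyY 4
  obtain ⟨u', hu'⟩ := hn g u
  have hu'Y : u' ∈ A.comap ρ := by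
    rw [Subgroup.mem_comap, ← hu']
    exact mul_mem (mul_mem hg huY) (inv_mem hg)
  have hu'3 : u' ^ 3 = 1 := by
    apply hρ
    rw [map_pow, ← hu', conj_pow, ← map_pow, hu3, map_one, mul_one, mul_inv_cancel]
  have hu'1 : u' ≠ 1 := by
    intro h
    rw [h, map_one, mul_inv_eq_one, mul_eq_left] at hu'
    exact hu1 (hρ (hu'.trans (map_one ρ).symm))
  have hπu' : π u' ≠ 1 := by
    intro h
    rw [hker] at h
    have h2 := center_sq h
    apply hu'1
    calc u' = u' ^ 3 * (u' ^ 2)⁻¹ := by group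
      _ = 1 := by rw [hu'3, h2, inv_one, mul_one]
  -- conjugate in A5
  obtain ⟨w0, hw0⟩ := alt5_conj (e ⟨π u, Subgroup.mem_map_of_mem π huY⟩) (e ⟨π u', Subgroup.mem_map_of_mem π hu'Y⟩)
    (by
      rw [← map_pow, ← map_one e]
      congr 1
      apply Subtype.ext
      rw [Subgroup.coe_pow, Subgroup.coe_one]
      change (π u) ^ 3 = 1
      rw [← map_pow, hu3, map_one])
    (by
      intro h
      rw [← map_one e] at h
      have h2 := congrArg Subtype.val (e.injective h)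
      rw [Subgroup.coe_one] at h2
      change π u = 1 at h2
      rw [hπu] at h2
      exact hyn h2)
    (by
      rw [← map_pow, ← map_one e]
      congr 1
      apply Subtype.ext
      rw [Subgroup.coe_pow, Subgroup.coe_one]
      change (π u') ^ 3 = 1
      rw [← map_pow, hu'3, map_one])
    (by
      intro h
      rw [← map_one e] at h
      have h2 := congrArg Subtype.val (e.injective h)
      rw [Subgroup.coe_one] at h2
      change π u' = 1 at h2
      exact hπu' h2)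
  obtain ⟨w, hwY, hw⟩ := Subgroup.mem_map.1 (e.symm w0).2
  have hwe : e ⟨π w, Subgroup.mem_map_of_mem π hwY⟩ = w0 := by
    rw [← e.apply_symm_apply w0]
    congr 1
    exact Subtype.ext hw
  have h6 : π (w * u * w⁻¹) = π u' := by
    rw [← hwe, ← map_inv, ← map_mul, ← map_mul] at hw0
    have h7 := congrArg Subtype.val (e.injective hw0)
    rw [map_mul, map_mul, map_inv]
    exact h7
  have h8 : u'⁻¹ * (w * u * w⁻¹) ∈ Z := by
    rw [← hker, map_mul, h6, map_inv, inv_mul_cancel]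
  have h9 : w * u * w⁻¹ = u' := by
    have hzc := Subgroup.mem_center_iff.1 h8
    have hz2 := center_sq h8
    set z := u'⁻¹ * (w * u * w⁻¹) with hz
    have h10 : w * u * w⁻¹ = u' * z := by rw [hz]; group
    have h11 : (w * u * w⁻¹) ^ 3 = 1 := by rw [conj_pow, hu3, mul_one, mul_inv_cancel]
    have h12 : (u' * z) ^ 3 = u' ^ 3 * z ^ 3 := (show Commute u' z from hzc u').mul_pow 3
    rw [h10, h12, hu'3, one_mul] at h11
    have h13 : z = 1 := by
      calc z = z ^ 3 * (z ^ 2)⁻¹ := by group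
        _ = 1 := by rw [h11, hz2, inv_one, mul_one]
    rw [h10, h13, mul_one]
  have h14 : (ρ w)⁻¹ * g ∈ M := by
    apply hc u hu1 hu3
    have h15 : ρ w * ρ u * (ρ w)⁻¹ = g * ρ u * g⁻¹ := by
      rw [hu', ← h9, map_mul, map_mul, map_inv]
    calc (ρ w)⁻¹ * g * ρ u = (ρ w)⁻¹ * (g * ρ u * g⁻¹) * g := by group
      _ = (ρ w)⁻¹ * (ρ w * ρ u * (ρ w)⁻¹) * g := by rw [h15]
      _ = ρ u * ((ρ w)⁻¹ * g) := by group
  have h16 : ρ w ∈ M := hM ⟨w, rfl⟩
  have := mul_mem h16 h14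
  rwa [mul_inv_cancel_left] at this

end Cfsg.Agent.H917.IFG
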